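import Mathlib

set_option autoImplicit false

namespace Cfsg.Agent.Lib.Helper24

/-- If an element `g` of order prime to `p` normalizes but does not centralize a `p`-subgroup `Q`
of order `p ^ k`, then some prime `r` dividing the order of `g` divides `p ^ i - 1` for some
`1 ≤ i ≤ k` (fixed points of an automorphism of prime order `r` of `Q`). -/
theorem exists_prime_dvd_pow_sub_one {G : Type*} [Group G] [Finite G] {p : ℕ} [Fact p.Prime]
    (Q : Subgroup G) (hQ : IsPGroup p Q) (g : G) (hg : g ∈ Subgroup.normalizer (Q : Set G))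
    (hgc : g ∉ Subgroup.centralizer (Q : Set G)) (hgp : (orderOf g).Coprime p) :
    ∃ r : ℕ, r.Prime ∧ r ∣ orderOf g ∧ ∃ k i : ℕ, Nat.card Q = p ^ k ∧ 1 ≤ i ∧ i ≤ k ∧
      r ∣ p ^ i - 1 := by
  classical
  have hp : p.Prime := Fact.out
  have hα1 : Q.normalizerMonoidHom ⟨g, hg⟩ ≠ 1 := by
    intro h
    have h1 : (⟨g, hg⟩ : Subgroup.normalizer (Q : Set G)) ∈ Q.normalizerMonoidHom.ker := h
    rw [Subgroup.normalizerMonoidHom_ker, Subgroup.mem_subgroupOf] at h1
    exact hgc h1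
  have hαo : orderOf (Q.normalizerMonoidHom ⟨g, hg⟩) ∣ orderOf g := by
    have h1 : orderOf (Q.normalizerMonoidHom ⟨g, hg⟩)
        ∣ orderOf (⟨g, hg⟩ : Subgroup.normalizer (Q : Set G)) := orderOf_map_dvd _ _
    rwa [Subgroup.orderOf_mk] at h1
  have hgpos : 0 < orderOf g := orderOf_pos g
  have hα0 : orderOf (Q.normalizerMonoidHom ⟨g, hg⟩) ≠ 0 :=
    (Nat.pos_of_dvd_of_pos hαo hgpos).ne'
  have hαne1 : orderOf (Q.normalizerMonoidHom ⟨g, hg⟩) ≠ 1 := by
    intro h; exact hα1 (orderOf_eq_one_iff.mp h)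
  obtain ⟨r, hr, hrd⟩ := Nat.exists_prime_and_dvd hαne1
  have hβ : orderOf ((Q.normalizerMonoidHom ⟨g, hg⟩) ^ (orderOf (Q.normalizerMonoidHom ⟨g, hg⟩) / r)) = r :=
    orderOf_pow_orderOf_div hα0 hrd
  obtain ⟨β, hβdef⟩ : ∃ β : MulAut Q, β = (Q.normalizerMonoidHom ⟨g, hg⟩) ^ (orderOf (Q.normalizerMonoidHom ⟨g, hg⟩) / r) :=
    ⟨_, rfl⟩
  rw [← hβdef] at hβ
  have hrfact : Fact r.Prime := ⟨hr⟩
  have hfin : Fintype Q := Fintype.ofFinite Q
  have hσ : (MulAut.toPerm Q β) ^ r ^ 1 = 1 := by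
    rw [pow_one, ← map_pow, ← hβ, pow_orderOf_eq_one, map_one]
  have hcong := Equiv.Perm.card_compl_support_modEq hσ
  -- the subgroup of fixed points
  let F : Subgroup Q :=
    { carrier := {q | β q = q}
      mul_mem' := fun {a b} ha hb => by
        simp only [Set.mem_ofPred_eq] at *; rw [map_mul, ha, hb]
      one_mem' := map_one β
      inv_mem' := fun {a} ha => by
        simp only [Set.mem_ofPred_eq] at *; rw [map_inv, ha] }
  have hFcard : Nat.card F = (MulAut.toPerm Q β).supportᶜ.card := by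
    have e : F ≃ ((MulAut.toPerm Q β).supportᶜ : Finset Q) :=
      Equiv.subtypeEquivRight (fun q => by
        rw [Finset.mem_compl, Equiv.Perm.mem_support, not_not]
        exact Iff.rfl)
    rw [Nat.card_congr e, Nat.card_eq_fintype_card, Fintype.card_coe]
  have hFtop : F ≠ ⊤ := by
    intro h
    have h1 : β = 1 := by
      ext q
      have h2 : q ∈ F := by rw [h]; exact Subgroup.mem_top q
      have h3 : β q = q := h2
      rw [h3]; rfl
    rw [h1, orderOf_one] at hβ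
    exact hr.one_lt.ne hβ
  obtain ⟨k, hk⟩ := hQ.exists_card_eq
  obtain ⟨j, hj⟩ := (hQ.to_subgroup F).exists_card_eq
  have hjk : j ≤ k := by
    have h1 : Nat.card F ∣ Nat.card Q := Subgroup.card_subgroup_dvd_card F
    rw [hj, hk] at h1
    exact (Nat.pow_dvd_pow_iff_le_right hp.one_lt).mp h1
  have hjk' : j ≠ k := by
    intro h
    apply hFtop
    apply Subgroup.eq_top_of_card_eq
    rw [hj, hk, h]
  refine ⟨r, hr, hrd.trans hαo, k, k - j, hk, by omega, by omega, ?_⟩
  rw [← hFcard, hj, ← Nat.card_eq_fintype_card, hk] at hcong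
  have h1 : r ∣ p ^ k - p ^ j :=
    (Nat.modEq_iff_dvd' (Nat.pow_le_pow_right hp.pos hjk)).mp hcong
  have h2 : p ^ k - p ^ j = (p ^ (k - j) - 1) * p ^ j := by
    rw [Nat.sub_mul, one_mul, ← pow_add]
    congr 2
    omega
  rw [h2] at h1
  have hrp : Nat.Coprime r p := Nat.Coprime.coprime_dvd_left (hrd.trans hαo) hgp
  exact (Nat.Coprime.pow_right j hrp).dvd_of_dvd_mul_right h1

end Cfsg.Agent.Lib.Helper24
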