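import Mathlib

set_option autoImplicit false

namespace Cfsg.Agent.Lib.Helper24

/-- In a finite cyclic group, an element of prime order `p` generates all solutions of
`y ^ p = 1`. -/
theorem mem_zpowers_of_orderOf_eq_prime {T : Type*} [Group T] [Finite T] [IsCyclic T] {p : ℕ}
    (hp : p.Prime) (x y : T) (hx : orderOf x = p) (hy : y ^ p = 1) : y ∈ Subgroup.zpowers x := by
  classical
  have : Fintype T := Fintype.ofFinite T
  have hle : (Finset.univ.filter (fun a : T => a ^ p = 1)).card ≤ p :=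
    IsCyclic.card_pow_eq_one_le hp.pos
  have hZcard : ((Finset.range p).image (fun i => x ^ i)).card = p := by
    rw [Finset.card_image_of_injOn, Finset.card_range]
    intro i hi j hj hij
    have hi' : i ∈ Set.Iio (orderOf x) := by rw [hx]; simpa using hi
    have hj' : j ∈ Set.Iio (orderOf x) := by rw [hx]; simpa using hj
    exact pow_injOn_Iio_orderOf hi' hj' hij
  have hZsub : (Finset.range p).image (fun i => x ^ i) ⊆ Finset.univ.filter (fun a : T => a ^ p = 1) := by
    intro z hz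
    obtain ⟨i, _, rfl⟩ := Finset.mem_image.mp hz
    rw [Finset.mem_filter]
    refine ⟨Finset.mem_univ _, ?_⟩
    rw [← pow_mul, mul_comm, pow_mul, ← hx, pow_orderOf_eq_one, one_pow]
  have hZeq := Finset.eq_of_subset_of_card_le hZsub (by rw [hZcard]; exact hle)
  have hy' : y ∈ (Finset.range p).image (fun i => x ^ i) := by
    rw [hZeq, Finset.mem_filter]
    exact ⟨Finset.mem_univ _, hy⟩
  obtain ⟨i, _, rfl⟩ := Finset.mem_image.mp hy'
  exact Subgroup.pow_mem _ (Subgroup.mem_zpowers x) i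

/-- Two subgroups of a cyclic `p`-subgroup with trivial intersection: one of them is trivial. -/
theorem eq_bot_or_eq_bot_of_inf_eq_bot_of_isCyclic {G : Type*} [Group G] [Finite G] {p : ℕ}
    [Fact p.Prime] (C : Subgroup G) [IsCyclic C] (hC : IsPGroup p C) (X Y : Subgroup G)
    (hX : X ≤ C) (hY : Y ≤ C) (h : X ⊓ Y = ⊥) : X = ⊥ ∨ Y = ⊥ := by
  have hp : p.Prime := Fact.out
  by_contra hcon
  push Not at hcon
  obtain ⟨hXne, hYne⟩ := hcon
  have key : ∀ W : Subgroup G, W ≤ C → W ≠ ⊥ → ∃ w ∈ W, orderOf w = p := by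
    intro W hW hWne
    have hWp : IsPGroup p W := hC.to_le hW
    obtain ⟨k, hk⟩ := hWp.exists_card_eq
    have hk0 : k ≠ 0 := by
      intro h0
      rw [h0, pow_zero] at hk
      exact hWne ((Subgroup.eq_bot_iff_card W).mpr hk)
    have hdvd : p ∣ Nat.card W := by
      rw [hk]; exact dvd_pow_self p hk0
    obtain ⟨w, hw⟩ := exists_prime_orderOf_dvd_card' p hdvd
    exact ⟨w, w.2, by rw [← hw, Subgroup.orderOf_coe]⟩
  obtain ⟨x, hxX, hxo⟩ := key X hX hXne
  obtain ⟨y, hyY, hyo⟩ := key Y hY hYne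
  have h1 : (⟨y, hY hyY⟩ : C) ∈ Subgroup.zpowers (⟨x, hX hxX⟩ : C) := by
    apply mem_zpowers_of_orderOf_eq_prime hp
    · rw [Subgroup.orderOf_mk]; exact hxo
    · ext
      simp only [Subgroup.coe_pow, Subgroup.coe_one]
      rw [← hyo, pow_orderOf_eq_one]
  obtain ⟨i, hi⟩ := Subgroup.mem_zpowers_iff.mp h1
  have h2 : x ^ i = y := by
    have := congrArg (fun z : C => (z : G)) hi
    simpa using this
  have h3 : y ∈ X ⊓ Y := Subgroup.mem_inf.mpr ⟨by rw [← h2]; exact X.zpow_mem hxX i, hyY⟩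
  rw [h, Subgroup.mem_bot] at h3
  rw [h3, orderOf_one] at hyo
  exact hp.one_lt.ne hyo

end Cfsg.Agent.Lib.Helper24
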