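import Mathlib
import Cfsg.Agent.Lib.Helper24.TranspBlocks
import Cfsg.Agent.Lib.Helper24.TranspBlocks3
import Cfsg.Agent.Lib.Helper24.TranspFstar
import Cfsg.Agent.Lib.Helper24.SymFive
import Cfsg.Agent.Lib.Helper84.PCoreBasic
import Cfsg.Agent.S5344

/-!
# 3-transpositions with local `S₃` (helper24)

If every `d ∈ D` has `⟨D_d⟩ ≅ S₃` and `|O₃(C_G(d))| = 3`, then `⟨D⟩ ≅ S₅` or `S₃ × S₃`.
-/

set_option autoImplicit false

namespace Cfsg.Agent.Lib.Helper24

open Cfsg Equiv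

universe u

theorem s3_noncomm : ∀ σ τ : Perm (Fin 3), σ * σ = 1 → τ * τ = 1 → σ ≠ 1 → τ ≠ 1 → σ ≠ τ →
    σ * τ ≠ τ * σ := by decide

theorem s3_third_aux : ∀ σ τ υ : Perm (Fin 3), (σ * σ = 1 ∧ τ * τ = 1 ∧ υ * υ = 1 ∧ σ ≠ 1 ∧
    τ ≠ 1 ∧ υ ≠ 1 ∧ σ ≠ τ) → (υ = σ ∨ υ = τ ∨ υ = σ * τ * σ) := by decide

theorem s3_third (σ τ υ : Perm (Fin 3)) (h1 : σ * σ = 1) (h2 : τ * τ = 1) (h3 : υ * υ = 1)
    (h4 : σ ≠ 1) (h5 : τ ≠ 1) (h6 : υ ≠ 1) (h7 : σ ≠ τ) : υ = σ ∨ υ = τ ∨ υ = σ * τ * σ :=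
  s3_third_aux σ τ υ ⟨h1, h2, h3, h4, h5, h6, h7⟩

theorem s3_center : ∀ σ : Perm (Fin 3), (∀ τ : Perm (Fin 3), σ * τ = τ * σ) → σ = 1 := by
  decide

section

variable {G : Type*} [Group G] {D : Set G}

/-- local data: every `D_d` is a line of three pairwise non-commuting points -/
structure LS (D : Set G) : Prop where
  td : TD D
  one : (1 : G) ∉ D
  p1 : ∀ d ∈ D, ∀ x ∈ ASet D d, ∀ y ∈ ASet D d, x ≠ y → ¬ Commute x y
  p2 : ∀ d ∈ D, ∃ x ∈ ASet D d, ∃ y ∈ ASet D d, x ≠ y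
  p3 : ∀ d ∈ D, ∀ x ∈ ASet D d, ∀ y ∈ ASet D d, x ≠ y →
    ∀ z ∈ ASet D d, z = x ∨ z = y ∨ z = x * y * x

theorem LS.of_local (hD : Cfsg.IsThreeTranspositionSet D)
    (hconj : ∀ g : G, ∀ d ∈ D, g * d * g⁻¹ ∈ D)
    (hloc : ∀ d ∈ D, Nonempty (↥(Subgroup.closure (ASet D d)) ≃* Perm (Fin 3))) : LS D := by
  have h : TD D := by
    refine ⟨?_, hD.2, hconj⟩
    intro d hd
    have := pow_orderOf_eq_one d
    rw [hD.1 d hd, pow_two] at this
    exact this
  have h1 : (1 : G) ∉ D := by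
    intro h1
    have := hD.1 1 h1
    rw [orderOf_one] at this
    exact absurd this (by norm_num)
  -- transfer to `S₃`
  have key : ∀ d ∈ D, ∀ E : ↥(Subgroup.closure (ASet D d)) ≃* Perm (Fin 3),
      ∀ x (hx : x ∈ ASet D d),
      E ⟨x, Subgroup.subset_closure hx⟩ * E ⟨x, Subgroup.subset_closure hx⟩ = 1 ∧
      E ⟨x, Subgroup.subset_closure hx⟩ ≠ 1 := by
    intro d _ E x hx
    constructor
    · rw [← map_mul]
      have : (⟨x, Subgroup.subset_closure hx⟩ : ↥(Subgroup.closure (ASet D d)))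
          * ⟨x, Subgroup.subset_closure hx⟩ = 1 := Subtype.ext (h.sq x hx.1)
      rw [this, map_one]
    · intro h0
      have h2 := (MulEquiv.map_eq_one_iff E).mp h0
      have h3 : x = 1 := congrArg Subtype.val h2
      rw [h3] at hx
      exact h1 hx.1
  refine ⟨h, h1, ?_, ?_, ?_⟩
  · intro d hd x hx y hy hxy hc
    obtain ⟨E⟩ := hloc d hd
    obtain ⟨a1, a2⟩ := key d hd E x hx
    obtain ⟨b1, b2⟩ := key d hd E y hy
    have hne : E ⟨x, Subgroup.subset_closure hx⟩ ≠ E ⟨y, Subgroup.subset_closure hy⟩ := by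
      intro heq
      exact hxy (congrArg Subtype.val (E.injective heq))
    apply s3_noncomm _ _ a1 b1 a2 b2 hne
    rw [← map_mul, ← map_mul]
    congr 1
    exact Subtype.ext hc.eq
  · intro d hd
    obtain ⟨E⟩ := hloc d hd
    by_contra hcon
    push Not at hcon
    have hcA := Subgroup.isMulCommutative_closure (k := ASet D d) (by
      intro a ha b hb
      rw [hcon a ha b hb])
    have h2 := hcA.is_comm.comm (E.symm (swap 0 1)) (E.symm (swap 1 2))
    have h3 := congrArg E h2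
    rw [map_mul, map_mul, MulEquiv.apply_symm_apply, MulEquiv.apply_symm_apply] at h3
    revert h3
    decide
  · intro d hd x hx y hy hxy z hz
    obtain ⟨E⟩ := hloc d hd
    obtain ⟨a1, a2⟩ := key d hd E x hx
    obtain ⟨b1, b2⟩ := key d hd E y hy
    obtain ⟨c1, c2⟩ := key d hd E z hz
    have hne : E ⟨x, Subgroup.subset_closure hx⟩ ≠ E ⟨y, Subgroup.subset_closure hy⟩ := by
      intro heq
      exact hxy (congrArg Subtype.val (E.injective heq))
    rcases s3_third _ _ _ a1 b1 c1 a2 b2 c2 hne with h2 | h2 | h2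
    · left
      exact congrArg Subtype.val (E.injective h2)
    · right; left
      exact congrArg Subtype.val (E.injective h2)
    · right; right
      rw [← map_mul, ← map_mul] at h2
      exact congrArg Subtype.val (E.injective h2)

/-- conjugating `f` by the product of two commuting points not commuting with `f` -/
theorem conj_dbl (h : TD D) (hD : Cfsg.IsThreeTranspositionSet D) {x y f : G} (hx : x ∈ D)
    (hy : y ∈ D) (hf : f ∈ D) (hxy : x ≠ y) (hc : Commute x y) (hxf : ¬ Commute x f)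
    (hfy : ¬ Commute f y) :
    (x * y) * f * (x * y)⁻¹ ∈ D ∧ Commute f ((x * y) * f * (x * y)⁻¹) ∧
      (x * y) * f * (x * y)⁻¹ ≠ f := by
  obtain ⟨φ, hinj, h0, h1, h2⟩ := Cfsg.Agent.S5344.result hD hx hf hy hxy hc hxf hfy
  have e : (x * y) * f * (x * y)⁻¹
      = φ ((swap 0 1 * swap 2 3) * swap 1 2 * (swap 0 1 * swap 2 3)⁻¹) := by
    rw [map_mul, map_mul, map_inv, map_mul, h0, h1, h2]
  refine ⟨h.conj _ f hf, ?_, ?_⟩
  · rw [e]
    have h3 : (swap 1 2 : Perm (Fin 4)) * ((swap 0 1 * swap 2 3) * swap 1 2 * (swap 0 1 * swap 2 3)⁻¹)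
        = ((swap 0 1 * swap 2 3) * swap 1 2 * (swap 0 1 * swap 2 3)⁻¹) * swap 1 2 := by decide
    have h4 : φ (swap 1 2) * φ ((swap 0 1 * swap 2 3) * swap 1 2 * (swap 0 1 * swap 2 3)⁻¹)
        = φ ((swap 0 1 * swap 2 3) * swap 1 2 * (swap 0 1 * swap 2 3)⁻¹) * φ (swap 1 2) := by
      rw [← map_mul, ← map_mul, h3]
    rw [h1] at h4
    exact h4
  · rw [e]
    intro heq
    have h3 := hinj (heq.trans h1.symm)
    revert h3
    decide

/-- every point commutes with some point of a dual affine plane -/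
theorem LS.plane_commute (hL : LS D) (hD : Cfsg.IsThreeTranspositionSet D) {a c b : G}
    (ha : a ∈ D) (hc : c ∈ D) (hb : b ∈ D) (hab : a ≠ b) (hcab : Commute a b)
    (hac : ¬ Commute a c) (hcb : ¬ Commute c b) {f : G} (hf : f ∈ D) :
    Commute f a ∨ Commute f c ∨ Commute f b ∨ Commute f (c * a * c) ∨ Commute f (c * b * c) ∨
      Commute f (b * (c * a * c) * b) := by
  have h := hL.td
  by_contra hcon
  push Not at hcon
  obtain ⟨n1, n2, n3, n4, n5, n6⟩ := hcon
  obtain ⟨φ, hinj, h0, h1, h2⟩ := Cfsg.Agent.S5344.result hD ha hc hb hab hcab hac hcb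
  have p02 : φ (swap 0 2) = c * a * c := by
    have : (swap 0 2 : Perm (Fin 4)) = swap 1 2 * swap 0 1 * swap 1 2 := by decide
    rw [this, map_mul, map_mul, h0, h1]
  have p13 : φ (swap 1 3) = c * b * c := by
    have : (swap 1 3 : Perm (Fin 4)) = swap 1 2 * swap 2 3 * swap 1 2 := by decide
    rw [this, map_mul, map_mul, h1, h2]
  have p03 : φ (swap 0 3) = b * (c * a * c) * b := by
    have : (swap 0 3 : Perm (Fin 4)) = swap 2 3 * swap 0 2 * swap 2 3 := by decide
    rw [this, map_mul, map_mul, h2, p02]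
  have m02 : c * a * c ∈ D := by
    have := h.conj c a ha
    rwa [h.inv hc] at this
  have m13 : c * b * c ∈ D := by
    have := h.conj c b hb
    rwa [h.inv hc] at this
  have m03 : b * (c * a * c) * b ∈ D := by
    have := h.conj b _ m02
    rwa [h.inv hb] at this
  have ne2 : c * a * c ≠ c * b * c := by
    rw [← p02, ← p13]
    intro heq
    have := hinj heq
    revert this
    decide
  have c2 : Commute (c * a * c) (c * b * c) := by
    have e : (swap 0 2 * swap 1 3 : Perm (Fin 4)) = swap 1 3 * swap 0 2 := by decide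
    have := congrArg φ e
    rw [map_mul, map_mul, p02, p13] at this
    exact this
  have ne3 : b * (c * a * c) * b ≠ c := by
    rw [← p03]
    intro heq
    have := hinj (heq.trans h1.symm)
    revert this
    decide
  have c3 : Commute (b * (c * a * c) * b) c := by
    have e : (swap 0 3 * swap 1 2 : Perm (Fin 4)) = swap 1 2 * swap 0 3 := by decide
    have := congrArg φ e
    rw [map_mul, map_mul, p03, h1] at this
    exact this
  obtain ⟨g1D, g1c, g1n⟩ := conj_dbl h hD ha hb hf hab hcab (fun hh => n1 hh.symm) n3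
  obtain ⟨g2D, g2c, g2n⟩ := conj_dbl h hD m02 m13 hf ne2 c2 (fun hh => n4 hh.symm) n5
  obtain ⟨g3D, g3c, g3n⟩ := conj_dbl h hD m03 hc hf ne3 c3 (fun hh => n6 hh.symm) n2
  have hz : (a * b) * ((c * a * c) * (c * b * c)) = (b * (c * a * c) * b) * c := by
    have e : (swap 0 1 * swap 2 3 * (swap 0 2 * swap 1 3) : Perm (Fin 4))
        = swap 0 3 * swap 1 2 := by decide
    have := congrArg φ e
    simp only [map_mul] at this
    rw [h0, h2, p02, p13, p03, h1] at this
    exact this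
  -- conjugate `f ~ g₂` by `z₁`
  have hcj : Commute ((a * b) * f * (a * b)⁻¹)
      ((a * b) * ((c * a * c * (c * b * c)) * f * (c * a * c * (c * b * c))⁻¹) * (a * b)⁻¹) :=
    (Commute.conj_iff (a * b)).mpr g2c
  have e3 : (a * b) * ((c * a * c * (c * b * c)) * f * (c * a * c * (c * b * c))⁻¹) * (a * b)⁻¹
      = (b * (c * a * c) * b * c) * f * (b * (c * a * c) * b * c)⁻¹ := by
    rw [← hz]
    group
  rw [e3] at hcj
  have hne13 : (a * b) * f * (a * b)⁻¹ ≠ (b * (c * a * c) * b * c) * f * (b * (c * a * c) * b * c)⁻¹ := by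
    intro heq
    apply g2n
    rw [← hz] at heq
    have : (a * b)⁻¹ * ((a * b) * f * (a * b)⁻¹) * (a * b)
        = (a * b)⁻¹ * ((a * b * (c * a * c * (c * b * c))) * f
          * (a * b * (c * a * c * (c * b * c)))⁻¹) * (a * b) := by rw [heq]
    have e4 : (a * b)⁻¹ * ((a * b) * f * (a * b)⁻¹) * (a * b) = f := by group
    have e5 : (a * b)⁻¹ * ((a * b * (c * a * c * (c * b * c))) * f
          * (a * b * (c * a * c * (c * b * c)))⁻¹) * (a * b)
        = (c * a * c * (c * b * c)) * f * (c * a * c * (c * b * c))⁻¹ := by group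
    rw [e4, e5] at this
    exact this.symm
  exact hL.p1 f hf _ ⟨g1D, g1n, g1c⟩ _ ⟨g3D, g3n, g3c⟩ hne13 hcj

end

theorem mem_zpowers_of_pCore_centralizer {G : Type*} [Group G] [Finite G] {d s : G}
    (hcard : Nat.card (Cfsg.pCore 3 ↥(Subgroup.centralizer ({d} : Set G))) = 3)
    (hs : s ∈ Cfsg.pCore 3 G) (hsd : Commute s d) (hs1 : s ≠ 1) :
    ∀ q ∈ Cfsg.pCore 3 G, Commute q d → q ∈ Subgroup.zpowers s := by
  intro q hq hqd
  have hn : ((Cfsg.pCore 3 G).subgroupOf (Subgroup.centralizer ({d} : Set G))).Normal :=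
    (pCore_normal_h24 3 G).subgroupOf _
  have hp : IsPGroup 3 ((Cfsg.pCore 3 G).subgroupOf (Subgroup.centralizer ({d} : Set G))) :=
    (pCore_three_isPGroup G).comap_subtype
  have hle := Helper84.le_pCore hn hp
  have hmemC : ∀ g : G, Commute g d → g ∈ Subgroup.centralizer ({d} : Set G) := by
    intro g hg
    rw [Subgroup.mem_centralizer_iff]
    intro y hy
    rw [Set.mem_singleton_iff] at hy
    rw [hy]
    exact hg.eq.symm
  have hs' : (⟨s, hmemC s hsd⟩ : Subgroup.centralizer ({d} : Set G))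
      ∈ Cfsg.pCore 3 ↥(Subgroup.centralizer ({d} : Set G)) :=
    hle (Subgroup.mem_subgroupOf.mpr hs)
  have hq' : (⟨q, hmemC q hqd⟩ : Subgroup.centralizer ({d} : Set G))
      ∈ Cfsg.pCore 3 ↥(Subgroup.centralizer ({d} : Set G)) :=
    hle (Subgroup.mem_subgroupOf.mpr hq)
  have hz : Subgroup.zpowers (⟨s, hmemC s hsd⟩ : Subgroup.centralizer ({d} : Set G))
      = Cfsg.pCore 3 ↥(Subgroup.centralizer ({d} : Set G)) := by
    apply Subgroup.eq_of_le_of_card_ge ((Subgroup.zpowers_le).mpr hs')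
    rw [hcard, Nat.card_zpowers]
    have h1 : orderOf (⟨s, hmemC s hsd⟩ : Subgroup.centralizer ({d} : Set G)) ∣ 3 := by
      rw [← hcard]
      exact Subgroup.orderOf_dvd_natCard _ hs'
    have h2 : orderOf (⟨s, hmemC s hsd⟩ : Subgroup.centralizer ({d} : Set G)) ≠ 1 := by
      rw [Ne, orderOf_eq_one_iff]
      intro h
      exact hs1 (congrArg Subtype.val h)
    rcases (Nat.dvd_prime Nat.prime_three).mp h1 with h | h
    · exact absurd h h2
    · rw [h]
  rw [← hz] at hq'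
  obtain ⟨k, hk⟩ := Subgroup.mem_zpowers_iff.mp hq'
  refine Subgroup.mem_zpowers_iff.mpr ⟨k, ?_⟩
  have := congrArg Subtype.val hk
  simpa using this

theorem inverts_of_fixed_trivial {X : Type*} [Group X] [Finite X] (σ : X →* X)
    (hσ : ∀ x, σ (σ x) = x) (hfix : ∀ x, σ x = x → x = 1) : ∀ x, σ x = x⁻¹ := by
  have hinj : Function.Injective (fun x : X => x⁻¹ * σ x) := by
    intro x y hxy
    have hxy' : x⁻¹ * σ x = y⁻¹ * σ y := hxy
    have h1 : σ (y * x⁻¹) = y * x⁻¹ := by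
      rw [map_mul, map_inv]
      have : σ y = y * x⁻¹ * σ x := by
        rw [mul_assoc, hxy', mul_inv_cancel_left]
      rw [this, mul_inv_cancel_right]
    have h2 := hfix _ h1
    exact (mul_inv_eq_one.mp h2).symm
  have hsurj := Finite.surjective_of_injective hinj
  intro x
  obtain ⟨x₀, hx₀⟩ := hsurj x
  have hx₀' : x₀⁻¹ * σ x₀ = x := hx₀
  rw [← hx₀', map_mul, map_inv, hσ, mul_inv_rev, inv_inv]

theorem swap5_facts1 : ∀ i j : Fin 5, i ≠ j → ∃ k l m : Fin 5, k ≠ i ∧ k ≠ j ∧ l ≠ i ∧ l ≠ j ∧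
    m ≠ i ∧ m ≠ j ∧ k ≠ l ∧ k ≠ m ∧ l ≠ m := by decide

theorem swap5_comm_aux : ∀ i j k l : Fin 5, (k ≠ i ∧ k ≠ j ∧ l ≠ i ∧ l ≠ j) →
    (swap i j * swap k l : Perm (Fin 5)) = swap k l * swap i j := by decide +kernel

theorem swap5_comm (i j k l : Fin 5) (h1 : k ≠ i) (h2 : k ≠ j) (h3 : l ≠ i) (h4 : l ≠ j) :
    (swap i j * swap k l : Perm (Fin 5)) = swap k l * swap i j :=
  swap5_comm_aux i j k l ⟨h1, h2, h3, h4⟩

/-- the case of a 4-cycle in the commuting graph -/
theorem LS.caseA {G : Type u} [Group G] [Finite G] {D : Set G} (hL : LS D)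
    (hD : Cfsg.IsThreeTranspositionSet D)
    (hloc : ∀ d ∈ D, Nonempty (↥(Subgroup.closure (ASet D d)) ≃* Perm (Fin 3)))
    (hii : ∀ d ∈ D, Nat.card (Cfsg.pCore 3 ↥(Subgroup.centralizer ({d} : Set G))) = 3)
    {d e₁ e₂ x : G} (hd : d ∈ D) (he₁ : e₁ ∈ ASet D d) (he₂ : e₂ ∈ ASet D d) (hne : e₁ ≠ e₂)
    (hx : x ∈ D) (hxd : x ≠ d) (hx1 : Commute x e₁) (hx2 : Commute x e₂) :
    Nonempty (↥(Subgroup.closure D) ≃* Perm (Fin 3) × Perm (Fin 3)) := by
  classical
  have h := hL.td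
  have he₁D : e₁ ∈ D := he₁.1
  have he₂D : e₂ ∈ D := he₂.1
  have hde₁ : Commute d e₁ := he₁.2.2
  have hde₂ : Commute d e₂ := he₂.2.2
  have hee : ¬ Commute e₁ e₂ := hL.p1 d hd e₁ he₁ e₂ he₂ hne
  have hxe₁ : x ≠ e₁ := by
    intro heq
    rw [heq] at hx2
    exact hee hx2
  have hxe₂ : x ≠ e₂ := by
    intro heq
    rw [heq] at hx1
    exact hee hx1.symm
  have hd1 : d ∈ ASet D e₁ := ⟨hd, Ne.symm he₁.2.1, hde₁.symm⟩
  have hx1' : x ∈ ASet D e₁ := ⟨hx, hxe₁, hx1.symm⟩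
  have hd2 : d ∈ ASet D e₂ := ⟨hd, Ne.symm he₂.2.1, hde₂.symm⟩
  have hx2' : x ∈ ASet D e₂ := ⟨hx, hxe₂, hx2.symm⟩
  have hdx : ¬ Commute d x := hL.p1 e₁ he₁D d hd1 x hx1' (Ne.symm hxd)
  have he₃D : e₁ * e₂ * e₁ ∈ D := by
    have := h.conj e₁ e₂ he₂D
    rwa [h.inv he₁D] at this
  have hx'D : d * x * d ∈ D := by
    have := h.conj d x hx
    rwa [h.inv hd] at this
  have hde₃ : Commute d (e₁ * e₂ * e₁) := (hde₁.mul_right hde₂).mul_right hde₁
  have hxe₃ : Commute x (e₁ * e₂ * e₁) := (hx1.mul_right hx2).mul_right hx1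
  have hx'e₁ : Commute (d * x * d) e₁ := (hde₁.mul_left hx1).mul_left hde₁
  have hx'e₂ : Commute (d * x * d) e₂ := (hde₂.mul_left hx2).mul_left hde₂
  have he₃e₁ : ¬ Commute (e₁ * e₂ * e₁) e₁ := by
    intro hc
    apply hee
    have h1 : e₁ * e₂ * e₁ * e₁ = e₁ * (e₁ * e₂ * e₁) := hc.eq
    have h2 : e₁ * e₂ * e₁ * e₁ = e₁ * e₂ := by rw [mul_assoc, h.sq e₁ he₁D, mul_one]
    have h3 : e₁ * (e₁ * e₂ * e₁) = e₂ * e₁ := by rw [mul_assoc, h.sqL he₁D]
    show e₁ * e₂ = e₂ * e₁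
    rw [← h2, ← h3, h1]
  have hx'd : ¬ Commute (d * x * d) d := by
    intro hc
    apply hdx
    have h1 : d * x * d * d = d * (d * x * d) := hc.eq
    have h2 : d * x * d * d = d * x := by rw [mul_assoc, h.sq d hd, mul_one]
    have h3 : d * (d * x * d) = x * d := by rw [mul_assoc, h.sqL hd]
    show d * x = x * d
    rw [← h2, ← h3, h1]
  have he₃d : e₁ * e₂ * e₁ ≠ d := by
    intro heq
    rw [heq] at he₃e₁
    exact he₃e₁ hde₁
  have he₃x : e₁ * e₂ * e₁ ≠ x := by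
    intro heq
    rw [heq] at he₃e₁
    exact he₃e₁ hx1
  have hx'ne₁ : d * x * d ≠ e₁ := by
    intro heq
    rw [heq] at hx'd
    exact hx'd hde₁.symm
  have hx'ne₂ : d * x * d ≠ e₂ := by
    intro heq
    rw [heq] at hx'd
    exact hx'd hde₂.symm
  have hAd : ∀ z ∈ ASet D d, z = e₁ ∨ z = e₂ ∨ z = e₁ * e₂ * e₁ :=
    hL.p3 d hd e₁ he₁ e₂ he₂ hne
  have hAe₁ : ∀ z ∈ ASet D e₁, z = d ∨ z = x ∨ z = d * x * d :=
    hL.p3 e₁ he₁D d hd1 x hx1' (Ne.symm hxd)
  have hAe₂ : ∀ z ∈ ASet D e₂, z = d ∨ z = x ∨ z = d * x * d :=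
    hL.p3 e₂ he₂D d hd2 x hx2' (Ne.symm hxd)
  have he₁x : e₁ ∈ ASet D x := ⟨he₁D, Ne.symm hxe₁, hx1⟩
  have he₂x : e₂ ∈ ASet D x := ⟨he₂D, Ne.symm hxe₂, hx2⟩
  have hAx : ∀ z ∈ ASet D x, z = e₁ ∨ z = e₂ ∨ z = e₁ * e₂ * e₁ :=
    hL.p3 x hx e₁ he₁x e₂ he₂x hne
  have he₃d' : e₁ * e₂ * e₁ ∈ ASet D d := ⟨he₃D, he₃d, hde₃⟩
  have he₃x' : e₁ * e₂ * e₁ ∈ ASet D x := ⟨he₃D, he₃x, hxe₃⟩
  have hx'1 : d * x * d ∈ ASet D e₁ := ⟨hx'D, hx'ne₁, hx'e₁.symm⟩
  have hx'2 : d * x * d ∈ ASet D e₂ := ⟨hx'D, hx'ne₂, hx'e₂.symm⟩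
  have hsame1 : SameA D d x := by
    apply Set.ext
    intro z
    constructor
    · intro hz
      rcases hAd z hz with h1 | h1 | h1
      · rw [h1]; exact he₁x
      · rw [h1]; exact he₂x
      · rw [h1]; exact he₃x'
    · intro hz
      rcases hAx z hz with h1 | h1 | h1
      · rw [h1]; exact he₁
      · rw [h1]; exact he₂
      · rw [h1]; exact he₃d'
  have hsame2 : SameA D e₁ e₂ := by
    apply Set.ext
    intro z
    constructor
    · intro hz
      rcases hAe₁ z hz with h1 | h1 | h1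
      · rw [h1]; exact hd2
      · rw [h1]; exact hx2'
      · rw [h1]; exact hx'2
    · intro hz
      rcases hAe₂ z hz with h1 | h1 | h1
      · rw [h1]; exact hd1
      · rw [h1]; exact hx1'
      · rw [h1]; exact hx'1
  have htQ : d * x ∈ Cfsg.pCore 3 G := mul_mem_pCore_three h hL.one hd hx hsame1
  have hsQ : e₁ * e₂ ∈ Cfsg.pCore 3 G := mul_mem_pCore_three h hL.one he₁D he₂D hsame2
  have hcover : ∀ f ∈ D, f ∈ ASet D d ∨ f ∈ ASet D e₁ := by
    intro f hf
    by_contra hcon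
    push Not at hcon
    obtain ⟨hf1, hf2⟩ := hcon
    have hdf : ¬ Commute d f := by
      intro hc
      by_cases hfd : f = d
      · rw [hfd] at hf2
        exact hf2 hd1
      · exact hf1 ⟨hf, hfd, hc⟩
    have he₁f : ¬ Commute e₁ f := by
      intro hc
      by_cases hfe : f = e₁
      · rw [hfe] at hf1
        exact hf1 he₁
      · exact hf2 ⟨hf, hfe, hc⟩
    have hQn : (Cfsg.pCore 3 G).Normal := pCore_normal_h24 3 G
    have hQ3 : IsPGroup 3 (Cfsg.pCore 3 G) := pCore_three_isPGroup G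
    have ht1 : d * x ≠ 1 := by
      intro h1
      apply hxd
      have : x = d⁻¹ := eq_inv_of_mul_eq_one_right h1
      rw [this, h.inv hd]
    have hs1 : e₁ * e₂ ≠ 1 := by
      intro h1
      apply hne
      have : e₂ = e₁⁻¹ := eq_inv_of_mul_eq_one_right h1
      rw [this, h.inv he₁D]
    have hsd : Commute (e₁ * e₂) d := (hde₁.mul_right hde₂).symm
    have hQd := mem_zpowers_of_pCore_centralizer (hii d hd) hsQ hsd hs1
    have hQ2 : ∀ q ∈ Cfsg.pCore 3 G, q * q = 1 → q = 1 := by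
      intro q hq hq2
      exact eq_one_of_pow_prime_of_isPGroup Nat.prime_two Nat.prime_three (by norm_num) hQ3 hq
        (by rw [pow_two]; exact hq2)
    have hdinv := h.inv hd
    have he₁inv := h.inv he₁D
    have hz₁inv : (d * e₁)⁻¹ = d * e₁ := by
      rw [mul_inv_rev, hdinv, he₁inv, hde₁.eq]
    have hzz : (d * e₁) * (d * e₁) = 1 := by
      calc (d * e₁) * (d * e₁) = (d * e₁) * (d * e₁)⁻¹ := by rw [hz₁inv]
        _ = 1 := mul_inv_cancel _
    have hz₁s : (d * e₁) * (e₁ * e₂) * (d * e₁)⁻¹ = (e₁ * e₂)⁻¹ := by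
      rw [hz₁inv, mul_inv_rev, h.inv he₂D, he₁inv]
      calc d * e₁ * (e₁ * e₂) * (d * e₁) = d * (e₁ * e₁) * e₂ * d * e₁ := by group
        _ = d * e₂ * d * e₁ := by rw [h.sq e₁ he₁D, mul_one]
        _ = e₂ * (d * d) * e₁ := by rw [hde₂.eq]; group
        _ = e₂ * e₁ := by rw [h.sq d hd, mul_one]
    have hz₁t : (d * e₁) * (d * x) * (d * e₁)⁻¹ = (d * x)⁻¹ := by
      rw [hz₁inv, mul_inv_rev, h.inv hx, hdinv]
      have hc1 : Commute e₁ (x * d) := hx1.symm.mul_right hde₁.symm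
      calc d * e₁ * (d * x) * (d * e₁) = d * (e₁ * d) * (x * d) * e₁ := by group
        _ = d * (d * e₁) * (x * d) * e₁ := by rw [hde₁.eq]
        _ = (d * d) * (e₁ * (x * d)) * e₁ := by group
        _ = (x * d) * e₁ * e₁ := by rw [h.sq d hd, one_mul, hc1.eq]
        _ = x * d := by rw [mul_assoc, h.sq e₁ he₁D, mul_one]
    have hc : ∀ f' ∈ D, d * f' ∈ Cfsg.pCore 3 G → f' = d ∨ f' = x ∨ f' = d * x * d := by
      intro f' hf' hq
      by_cases hcf : Commute d f'
      · left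
        have h2 : (d * f') * (d * f') = 1 := by
          calc d * f' * (d * f') = d * (f' * d) * f' := by group
            _ = d * (d * f') * f' := by rw [hcf.eq]
            _ = (d * d) * (f' * f') := by group
            _ = 1 := by rw [h.sq d hd, h.sq f' hf', one_mul]
        have h3 := hQ2 _ hq h2
        have : f' = d⁻¹ := eq_inv_of_mul_eq_one_right h3
        rw [this, hdinv]
      · by_contra hnot
        push Not at hnot
        obtain ⟨hn1, hn2, hn3⟩ := hnot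
        have hne₁f' : ¬ Commute e₁ f' := by
          intro hc'
          by_cases hfe : f' = e₁
          · rw [hfe] at hcf
            exact hcf hde₁
          · rcases hAe₁ f' ⟨hf', hfe, hc'⟩ with h1 | h1 | h1
            · exact hn1 h1
            · exact hn2 h1
            · exact hn3 h1
        have h3 : (f' * e₁) ^ 3 = 1 := h.cube hf' he₁D (fun hh => hne₁f' hh.symm)
        have h4 : (d * f')⁻¹ * (e₁ * (d * f') * e₁⁻¹) ∈ Cfsg.pCore 3 G :=
          mul_mem (inv_mem hq) (hQn.conj_mem _ hq e₁)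
        have e4 : (d * f')⁻¹ * (e₁ * (d * f') * e₁⁻¹) = (f' * e₁) ^ 2 := by
          rw [mul_inv_rev, hdinv, h.inv hf', he₁inv, pow_two]
          calc f' * d * (e₁ * (d * f') * e₁) = f' * d * (e₁ * d) * f' * e₁ := by group
            _ = f' * d * (d * e₁) * f' * e₁ := by rw [hde₁.eq]
            _ = f' * (d * d) * e₁ * f' * e₁ := by group
            _ = f' * e₁ * (f' * e₁) := by rw [h.sq d hd, mul_one]; group
        rw [e4] at h4
        have h5 : f' * e₁ ∈ Cfsg.pCore 3 G := by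
          have e5 : f' * e₁ = ((f' * e₁) ^ 2) ^ 2 := by
            rw [← pow_mul]
            have : (f' * e₁) ^ (2 * 2) = (f' * e₁) ^ 3 * (f' * e₁) := by
              rw [← pow_succ]
            rw [this, h3, one_mul]
          rw [e5]
          exact pow_mem h4 2
        have h6 : d * e₁ ∈ Cfsg.pCore 3 G := by
          have e6 : d * e₁ = (d * f') * (f' * e₁) := by
            rw [mul_assoc, h.sqL hf']
          rw [e6]
          exact mul_mem hq h5
        have h8 := hQ2 _ h6 hzz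
        apply he₁.2.1
        have : e₁ = d⁻¹ := eq_inv_of_mul_eq_one_right h8
        rw [this, hdinv]
    have hfixz : ∀ q ∈ Cfsg.pCore 3 G, Commute (d * e₁) q → q = 1 := by
      intro q hq hzq
      obtain ⟨r, hrdef⟩ : ∃ r : G, r = q⁻¹ * (d * q * d⁻¹) := ⟨_, rfl⟩
      have hr : r ∈ Cfsg.pCore 3 G := by
        rw [hrdef]
        exact mul_mem (inv_mem hq) (hQn.conj_mem _ hq d)
      have hdrd : d * r⁻¹ * d = r := by
        have e1 : (q⁻¹ * (d * q * d⁻¹))⁻¹ = d * q⁻¹ * d⁻¹ * q := by group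
        rw [hrdef, e1, hdinv]
        calc d * (d * q⁻¹ * d * q) * d = (d * d) * q⁻¹ * (d * q * d) := by group
          _ = q⁻¹ * (d * q * d) := by rw [h.sq d hd, one_mul]
      have hzd : Commute (d * e₁) d := (Commute.refl d).mul_left hde₁.symm
      have hzr : Commute (d * e₁) r := by
        rw [hrdef]
        exact (hzq.inv_right).mul_right ((hzd.mul_right hzq).mul_right hzd.inv_right)
      have hf' : r⁻¹ * d * r ∈ D := by
        have := h.conj r⁻¹ d hd
        rwa [inv_inv] at this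
      have e : d * (r⁻¹ * d * r) = r * r := by
        calc d * (r⁻¹ * d * r) = (d * r⁻¹ * d) * r := by group
          _ = r * r := by rw [hdrd]
      have hcontra : ∀ t : G, Commute (d * e₁) t → (d * e₁) * t * (d * e₁)⁻¹ = t⁻¹ →
          t ∈ Cfsg.pCore 3 G → t = 1 := by
        intro t hct hit htQ'
        have h2 : (d * e₁) * t * (d * e₁)⁻¹ = t := by rw [hct.eq, mul_inv_cancel_right]
        have h3 : t = t⁻¹ := h2.symm.trans hit
        apply hQ2 t htQ'
        calc t * t = t * t⁻¹ := by rw [← h3]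
          _ = 1 := mul_inv_cancel t
      have hrr : r * r = 1 := by
        rcases hc _ hf' (by rw [e]; exact mul_mem hr hr) with h1 | h1 | h1
        · rw [← e, h1, h.sq d hd]
        · exfalso
          have h2 : r * r = d * x := by rw [← e, h1]
          have h3 : Commute (d * e₁) (d * x) := by
            rw [← h2]
            exact hzr.mul_right hzr
          exact ht1 (hcontra _ h3 hz₁t htQ)
        · exfalso
          have h2 : r * r = (d * x)⁻¹ := by
            rw [← e, h1, mul_inv_rev, h.inv hx, hdinv, mul_assoc, h.sqL hd]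
          have h3 : Commute (d * e₁) (d * x)⁻¹ := by
            rw [← h2]
            exact hzr.mul_right hzr
          have h3' : Commute (d * e₁) (d * x) := by
            have := h3.inv_right
            rwa [inv_inv] at this
          exact ht1 (hcontra _ h3' hz₁t htQ)
      have hr1 : r = 1 := hQ2 r hr hrr
      have hqd : Commute q d := by
        rw [hrdef] at hr1
        have h1 : d * q * d⁻¹ = q := by
          have := eq_inv_of_mul_eq_one_right hr1
          rw [this, inv_inv]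
        show q * d = d * q
        calc q * d = (d * q * d⁻¹) * d := by rw [h1]
          _ = d * q := by group
      obtain ⟨k, hk⟩ := Subgroup.mem_zpowers_iff.mp (hQd q hq hqd)
      have h1 : (d * e₁) * q * (d * e₁)⁻¹ = q⁻¹ := by
        rw [← hk, ← conj_zpow, hz₁s, inv_zpow]
      exact hcontra q hzq h1 hq
    have hinvQ : ∀ q ∈ Cfsg.pCore 3 G, (d * e₁) * q * (d * e₁)⁻¹ = q⁻¹ := by
      have hσ : ∀ q : ↥(Cfsg.pCore 3 G),
          (MulAut.conjNormal (H := Cfsg.pCore 3 G) (d * e₁)).toMonoidHom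
            ((MulAut.conjNormal (H := Cfsg.pCore 3 G) (d * e₁)).toMonoidHom q) = q := by
        intro q
        apply Subtype.ext
        show (d * e₁) * ((d * e₁) * (q : G) * (d * e₁)⁻¹) * (d * e₁)⁻¹ = q
        rw [hz₁inv]
        calc d * e₁ * (d * e₁ * (q : G) * (d * e₁)) * (d * e₁)
            = ((d * e₁) * (d * e₁)) * q * ((d * e₁) * (d * e₁)) := by group
          _ = q := by rw [hzz, one_mul, mul_one]
      have hfx : ∀ q : ↥(Cfsg.pCore 3 G),
          (MulAut.conjNormal (H := Cfsg.pCore 3 G) (d * e₁)).toMonoidHom q = q → q = 1 := by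
        intro q hq
        apply Subtype.ext
        have h1 : (d * e₁) * (q : G) * (d * e₁)⁻¹ = q := congrArg Subtype.val hq
        apply hfixz q q.2
        show (d * e₁) * q = q * (d * e₁)
        calc (d * e₁) * q = ((d * e₁) * q * (d * e₁)⁻¹) * (d * e₁) := by group
          _ = q * (d * e₁) := by rw [h1]
      have key := inverts_of_fixed_trivial _ hσ hfx
      intro q hq
      exact congrArg Subtype.val (key ⟨q, hq⟩)
    obtain ⟨φ, hinj, h0, h1, h2⟩ := Cfsg.Agent.S5344.result hD hd hf he₁D (Ne.symm he₁.2.1) hde₁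
      hdf (fun hh => he₁f hh.symm)
    have hz₁φ : φ (swap 0 1 * swap 2 3) = d * e₁ := by rw [map_mul, h0, h2]
    have hconjinv : ∀ g : G, ∀ q ∈ Cfsg.pCore 3 G,
        (g * (d * e₁) * g⁻¹) * q * (g * (d * e₁) * g⁻¹)⁻¹ = q⁻¹ := by
      intro g q hq
      have h3 := hinvQ (g⁻¹ * q * g) (by
        have := hQn.conj_mem q hq g⁻¹
        rwa [inv_inv] at this)
      calc (g * (d * e₁) * g⁻¹) * q * (g * (d * e₁) * g⁻¹)⁻¹
          = g * ((d * e₁) * (g⁻¹ * q * g) * (d * e₁)⁻¹) * g⁻¹ := by group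
        _ = g * (g⁻¹ * q * g)⁻¹ * g⁻¹ := by rw [h3]
        _ = q⁻¹ := by group
    have e2 : φ (swap 0 2 * swap 1 3) = φ (swap 1 2) * (d * e₁) * (φ (swap 1 2))⁻¹ := by
      rw [← hz₁φ, ← map_inv, ← map_mul, ← map_mul]
      congr 1
      decide
    have e3 : φ (swap 0 3 * swap 1 2) = φ (swap 1 3) * (d * e₁) * (φ (swap 1 3))⁻¹ := by
      rw [← hz₁φ, ← map_inv, ← map_mul, ← map_mul]
      congr 1
      decide
    have e123 : (d * e₁) * φ (swap 0 2 * swap 1 3) = φ (swap 0 3 * swap 1 2) := by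
      rw [← hz₁φ, ← map_mul]
      congr 1
      decide
    have i2 := hconjinv (φ (swap 1 2)) (d * x) htQ
    have i3 := hconjinv (φ (swap 1 3)) (d * x) htQ
    rw [← e2] at i2
    rw [← e3, ← e123] at i3
    have i1 := hinvQ ((d * x)⁻¹) (inv_mem htQ)
    rw [inv_inv] at i1
    have hfin : (d * x) = (d * x)⁻¹ := by
      calc d * x = (d * e₁) * (d * x)⁻¹ * (d * e₁)⁻¹ := i1.symm
        _ = (d * e₁) * (φ (swap 0 2 * swap 1 3) * (d * x) * (φ (swap 0 2 * swap 1 3))⁻¹)
              * (d * e₁)⁻¹ := by rw [i2]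
        _ = (d * e₁ * φ (swap 0 2 * swap 1 3)) * (d * x)
              * (d * e₁ * φ (swap 0 2 * swap 1 3))⁻¹ := by group
        _ = (d * x)⁻¹ := i3
    apply ht1
    apply hQ2 _ htQ
    calc (d * x) * (d * x) = (d * x) * (d * x)⁻¹ := by rw [← hfin]
      _ = 1 := mul_inv_cancel _
  have hDeq : D = ASet D e₁ ∪ ASet D d := by
    apply Set.ext
    intro f
    constructor
    · intro hf
      rcases hcover f hf with h1 | h1
      · exact Or.inr h1
      · exact Or.inl h1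
    · rintro (h1 | h1)
      · exact h1.1
      · exact h1.1
  have hcomm0 : ∀ u ∈ ASet D e₁, ∀ v ∈ ASet D d, Commute u v := by
    intro u hu v hv
    have hdv : Commute d v := hv.2.2
    have hxv : Commute x v := by
      rcases hAd v hv with h1 | h1 | h1
      · rw [h1]; exact hx1
      · rw [h1]; exact hx2
      · rw [h1]; exact hxe₃
    rcases hAe₁ u hu with h1 | h1 | h1
    · rw [h1]; exact hdv
    · rw [h1]; exact hxv
    · rw [h1]; exact (hdv.mul_left hxv).mul_left hdv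
  have hcomm : ∀ a ∈ Subgroup.closure (ASet D e₁), ∀ b ∈ Subgroup.closure (ASet D d),
      Commute a b := by
    intro a ha b hb
    have h1 : Subgroup.closure (ASet D d) ≤ Subgroup.centralizer (ASet D e₁ : Set G) := by
      rw [Subgroup.closure_le]
      intro v hv
      rw [SetLike.mem_coe, Subgroup.mem_centralizer_iff]
      intro u hu
      exact (hcomm0 u hu v hv).eq
    have h2 : Subgroup.closure (ASet D e₁)
        ≤ Subgroup.centralizer ((Subgroup.closure (ASet D d) : Subgroup G) : Set G) := by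
      rw [Subgroup.closure_le]
      intro u hu
      rw [SetLike.mem_coe, Subgroup.mem_centralizer_iff]
      intro v hv
      exact ((Subgroup.mem_centralizer_iff.mp (h1 hv)) u hu).symm
    exact (Subgroup.mem_centralizer_iff.mp (h2 ha) b hb).symm
  obtain ⟨E₁⟩ := hloc e₁ he₁D
  obtain ⟨E₂⟩ := hloc d hd
  have hcomm' : ∀ (m : ↥(Subgroup.closure (ASet D e₁))) (n : ↥(Subgroup.closure (ASet D d))),
      Commute ((Subgroup.closure (ASet D e₁)).subtype m)
        ((Subgroup.closure (ASet D d)).subtype n) :=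
    fun a b => hcomm a.1 a.2 b.1 b.2
  obtain ⟨ψ, hψ⟩ : ∃ ψ : ↥(Subgroup.closure (ASet D e₁)) × ↥(Subgroup.closure (ASet D d)) →* G,
      ψ = MonoidHom.noncommCoprod (Subgroup.closure (ASet D e₁)).subtype
        (Subgroup.closure (ASet D d)).subtype hcomm' := ⟨_, rfl⟩
  have hψa : ∀ p, ψ p = (p.1 : G) * (p.2 : G) := by
    intro p
    rw [hψ]
    rfl
  have hinj : Function.Injective ψ := by
    rw [injective_iff_map_eq_one]
    rintro ⟨a, b⟩ hab
    rw [hψa] at hab
    have hab' : (a : G) * (b : G) = 1 := hab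
    have ha : (a : G) = (b : G)⁻¹ := eq_inv_of_mul_eq_one_left hab'
    have hcen : ∀ τ : Perm (Fin 3), E₁ a * τ = τ * E₁ a := by
      intro τ
      obtain ⟨c, rfl⟩ := E₁.surjective τ
      rw [← map_mul, ← map_mul]
      congr 1
      apply Subtype.ext
      show (a : G) * c = c * a
      rw [ha]
      exact ((hcomm c.1 c.2 (b : G)⁻¹ (inv_mem b.2)).eq).symm
    have h1 := s3_center _ hcen
    have ha1 : a = 1 := (MulEquiv.map_eq_one_iff E₁).mp h1
    have hb1 : b = 1 := by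
      apply Subtype.ext
      rw [ha1] at hab'
      simpa using hab'
    rw [ha1, hb1]
    rfl
  have hcl : Subgroup.closure D
      = Subgroup.closure (ASet D e₁) ⊔ Subgroup.closure (ASet D d) := by
    conv_lhs => rw [hDeq]
    exact Subgroup.closure_union _ _
  have hrange : ψ.range = Subgroup.closure D := by
    rw [hcl, hψ, MonoidHom.noncommCoprod_range, Subgroup.range_subtype, Subgroup.range_subtype]
  exact ⟨(MulEquiv.subgroupCongr hrange.symm).trans
    ((MonoidHom.ofInjective hinj).symm.trans (MulEquiv.prodCongr E₁ E₂))⟩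

/-- the case of no 4-cycle in the commuting graph -/
theorem LS.caseB {G : Type u} [Group G] [Finite G] {D : Set G} (hL : LS D)
    (hD : Cfsg.IsThreeTranspositionSet D) (hne : D.Nonempty)
    (hB : ∀ d ∈ D, ∀ e₁ ∈ ASet D d, ∀ e₂ ∈ ASet D d, e₁ ≠ e₂ → ∀ x ∈ D, x ≠ d →
      Commute x e₁ → ¬ Commute x e₂) :
    Nonempty (↥(Subgroup.closure D) ≃* Perm (Fin 5)) := by
  classical
  have h := hL.td
  obtain ⟨d, hd⟩ := hne
  obtain ⟨e₁, he₁, e₂, he₂, hne12⟩ := hL.p2 d hd
  have he₁D : e₁ ∈ D := he₁.1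
  have he₂D : e₂ ∈ D := he₂.1
  have hde₁ : Commute d e₁ := he₁.2.2
  have hde₂ : Commute d e₂ := he₂.2.2
  have hee : ¬ Commute e₁ e₂ := hL.p1 d hd e₁ he₁ e₂ he₂ hne12
  have hd1 : d ∈ ASet D e₁ := ⟨hd, Ne.symm he₁.2.1, hde₁.symm⟩
  obtain ⟨x₁, hx₁, hx₁d⟩ : ∃ x₁ ∈ ASet D e₁, x₁ ≠ d := by
    obtain ⟨u, hu, v, hv, huv⟩ := hL.p2 e₁ he₁D
    by_cases hud : u = d
    · exact ⟨v, hv, fun hvd => huv (hud.trans hvd.symm)⟩
    · exact ⟨u, hu, hud⟩
  have hx₁D : x₁ ∈ D := hx₁.1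
  have hx₁e₁ : Commute x₁ e₁ := hx₁.2.2.symm
  have hdx₁ : ¬ Commute d x₁ := hL.p1 e₁ he₁D d hd1 x₁ hx₁ (Ne.symm hx₁d)
  have hx₁e₂ : ¬ Commute x₁ e₂ := hB d hd e₁ he₁ e₂ he₂ hne12 x₁ hx₁D hx₁d hx₁e₁
  obtain ⟨φ, hinj, h0, h1, h2, h3⟩ := SymFive.exists_symFive_hom (a := d) (b := x₁) (c := e₂)
    (d := e₁) (h.sq d hd) (h.sq x₁ hx₁D) (h.sq e₂ he₂D) (h.sq e₁ he₁D)
    (h.braid hd hx₁D hdx₁).symm (h.braid hx₁D he₂D hx₁e₂).symm
    (h.braid he₂D he₁D (fun hh => hee hh.symm)).symm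
    hde₂.eq.symm hde₁.eq.symm hx₁e₁.eq.symm (Ne.symm hx₁d)
  have hφD : ∀ i j : Fin 5, i ≠ j → φ (swap i j) ∈ D := by
    intro i j hij
    obtain ⟨τ, hτ⟩ := isConj_iff.mp
      (Equiv.Perm.isConj_swap (show (0 : Fin 5) ≠ 1 by decide) hij)
    rw [← hτ, map_mul, map_mul, map_inv, h0]
    exact h.conj _ d hd
  have hK3 : ∀ i j : Fin 5, i ≠ j → ∀ f ∈ D, Commute f (φ (swap i j)) → f ∈ φ.range := by
    intro i j hij f hf hc
    by_cases hft : f = φ (swap i j)
    · rw [hft]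
      exact ⟨_, rfl⟩
    obtain ⟨k, l, m, hki, hkj, hli, hlj, hmi, hmj, hkl, hkm, hlm⟩ := swap5_facts1 i j hij
    have hfA : f ∈ ASet D (φ (swap i j)) := ⟨hf, hft, hc.symm⟩
    have hne1 : φ (swap k l) ≠ φ (swap i j) := by
      intro heq
      have h4 := hinj heq
      have h5 := congrArg (fun σ : Perm (Fin 5) => σ k) h4
      simp only [Equiv.swap_apply_left] at h5
      rw [Equiv.swap_apply_of_ne_of_ne hki hkj] at h5
      exact hkl h5.symm
    have hne2 : φ (swap k m) ≠ φ (swap i j) := by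
      intro heq
      have h4 := hinj heq
      have h5 := congrArg (fun σ : Perm (Fin 5) => σ k) h4
      simp only [Equiv.swap_apply_left] at h5
      rw [Equiv.swap_apply_of_ne_of_ne hki hkj] at h5
      exact hkm h5.symm
    have hc1 : Commute (φ (swap i j)) (φ (swap k l)) := by
      show φ (swap i j) * φ (swap k l) = φ (swap k l) * φ (swap i j)
      rw [← map_mul, ← map_mul, swap5_comm i j k l hki hkj hli hlj]
    have hc2 : Commute (φ (swap i j)) (φ (swap k m)) := by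
      show φ (swap i j) * φ (swap k m) = φ (swap k m) * φ (swap i j)
      rw [← map_mul, ← map_mul, swap5_comm i j k m hki hkj hmi hmj]
    have hA1 : φ (swap k l) ∈ ASet D (φ (swap i j)) := ⟨hφD k l hkl, hne1, hc1⟩
    have hA2 : φ (swap k m) ∈ ASet D (φ (swap i j)) := ⟨hφD k m hkm, hne2, hc2⟩
    have hne12' : φ (swap k l) ≠ φ (swap k m) := by
      intro heq
      have h4 := hinj heq
      have h5 := congrArg (fun σ : Perm (Fin 5) => σ k) h4
      simp only [Equiv.swap_apply_left] at h5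
      exact hlm h5
    rcases hL.p3 _ (hφD i j hij) _ hA1 _ hA2 hne12' f hfA with h6 | h6 | h6
    · rw [h6]
      exact ⟨_, rfl⟩
    · rw [h6]
      exact ⟨_, rfl⟩
    · rw [h6, ← map_mul, ← map_mul]
      exact ⟨_, rfl⟩
  have hDsub : ∀ f ∈ D, f ∈ φ.range := by
    intro f hf
    have hx₁dx₁ : x₁ * d * x₁ = φ (swap 0 2) := by
      have : (swap 0 2 : Perm (Fin 5)) = swap 1 2 * swap 0 1 * swap 1 2 := by decide
      rw [this, map_mul, map_mul, h0, h1]
    have hx₁e₂x₁ : x₁ * e₂ * x₁ = φ (swap 1 3) := by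
      have : (swap 1 3 : Perm (Fin 5)) = swap 1 2 * swap 2 3 * swap 1 2 := by decide
      rw [this, map_mul, map_mul, h1, h2]
    have h03 : e₂ * (x₁ * d * x₁) * e₂ = φ (swap 0 3) := by
      have : (swap 0 3 : Perm (Fin 5)) = swap 2 3 * swap 0 2 * swap 2 3 := by decide
      rw [this, map_mul, map_mul, h2, ← hx₁dx₁]
    rcases hL.plane_commute hD hd hx₁D he₂D (Ne.symm he₂.2.1) hde₂ hdx₁ hx₁e₂ hf with
      c1 | c1 | c1 | c1 | c1 | c1
    · rw [← h0] at c1
      exact hK3 0 1 (by decide) f hf c1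
    · rw [← h1] at c1
      exact hK3 1 2 (by decide) f hf c1
    · rw [← h2] at c1
      exact hK3 2 3 (by decide) f hf c1
    · rw [hx₁dx₁] at c1
      exact hK3 0 2 (by decide) f hf c1
    · rw [hx₁e₂x₁] at c1
      exact hK3 1 3 (by decide) f hf c1
    · rw [h03] at c1
      exact hK3 0 3 (by decide) f hf c1
  have hrange : φ.range = Subgroup.closure D := by
    apply le_antisymm
    · rw [MonoidHom.range_eq_map, ← Equiv.Perm.closure_isSwap, MonoidHom.map_closure,
        Subgroup.closure_le]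
      rintro _ ⟨σ, ⟨i, j, hij, rfl⟩, rfl⟩
      exact Subgroup.subset_closure (hφD i j hij)
    · rw [Subgroup.closure_le]
      intro f hf
      exact hDsub f hf
  exact ⟨(MulEquiv.subgroupCongr hrange.symm).trans (MonoidHom.ofInjective hinj).symm⟩

/-- 3-transpositions with local `S₃` and `|O₃(C_G(d))| = 3` generate `S₅` or `S₃ × S₃` -/
theorem local_s3_main {G : Type u} [Group G] [Finite G] {D : Set G}
    (hD : Cfsg.IsThreeTranspositionSet D) (hconj : ∀ g : G, ∀ d ∈ D, g * d * g⁻¹ ∈ D)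
    (hne : D.Nonempty)
    (hloc : ∀ d ∈ D, Nonempty (↥(Subgroup.closure {y : G | y ∈ D ∧ y ≠ d ∧ Commute d y})
        ≃* Perm (Fin 3)) ∧
      Nat.card (Cfsg.pCore 3 ↥(Subgroup.centralizer ({d} : Set G))) = 3) :
    Nonempty (↥(Subgroup.closure D) ≃* Perm (Fin 5)) ∨
      Nonempty (↥(Subgroup.closure D) ≃* Perm (Fin 3) × Perm (Fin 3)) := by
  have hloc1 : ∀ d ∈ D, Nonempty (↥(Subgroup.closure (ASet D d)) ≃* Perm (Fin 3)) :=
    fun d hd => (hloc d hd).1
  have hii : ∀ d ∈ D, Nat.card (Cfsg.pCore 3 ↥(Subgroup.centralizer ({d} : Set G))) = 3 :=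
    fun d hd => (hloc d hd).2
  have hL := LS.of_local hD hconj hloc1
  by_cases hA : ∃ d ∈ D, ∃ e₁ ∈ ASet D d, ∃ e₂ ∈ ASet D d, e₁ ≠ e₂ ∧
      ∃ x ∈ D, x ≠ d ∧ Commute x e₁ ∧ Commute x e₂
  · obtain ⟨d, hd, e₁, he₁, e₂, he₂, hne12, x, hx, hxd, hx1, hx2⟩ := hA
    exact Or.inr (hL.caseA hD hloc1 hii hd he₁ he₂ hne12 hx hxd hx1 hx2)
  · left
    apply hL.caseB hD hne
    intro d hd e₁ he₁ e₂ he₂ hne12 x hx hxd hx1 hx2
    exact hA ⟨d, hd, e₁, he₁, e₂, he₂, hne12, x, hx, hxd, hx1, hx2⟩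

end Cfsg.Agent.Lib.Helper24
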