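import Mathlib
import Cfsg.Prelude.Def_Transfer

set_option autoImplicit false

namespace Cfsg.Agent.Lib.Helper24

/-- `|N_G(H) : C_G(H)|` divides `|Aut H|`. -/
theorem relIndex_dvd_card_mulAut {G : Type*} [Group G] (H : Subgroup G) :
    (Subgroup.centralizer (H : Set G)).relIndex (Subgroup.normalizer (H : Set G)) ∣ Nat.card (MulAut H) := by
  have key := Subgroup.card_dvd_of_injective _ (QuotientGroup.kerLift_injective H.normalizerMonoidHom)
  rw [Subgroup.normalizerMonoidHom_ker, ← Subgroup.index, ← Subgroup.relIndex] at key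
  exact key

theorem toPerm_injective {M : Type*} [Mul M] : Function.Injective (MulAut.toPerm M) := by
  intro a b h
  apply MulEquiv.ext
  intro x
  have := congrArg (fun e : Equiv.Perm M => e x) h
  exact this

/-- `|Aut H|` divides `|H|!`. -/
theorem card_mulAut_dvd_factorial (M : Type*) [Group M] [Finite M] :
    Nat.card (MulAut M) ∣ (Nat.card M).factorial := by
  have h := Subgroup.card_dvd_of_injective (MulAut.toPerm M) toPerm_injective
  rwa [Nat.card_perm] at h

/-- `|N_G(H) : C_G(H)|` divides `|H|!`. -/
theorem relIndex_dvd_factorial {G : Type*} [Group G] (H : Subgroup G) [Finite H] :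
    (Subgroup.centralizer (H : Set G)).relIndex (Subgroup.normalizer (H : Set G)) ∣ (Nat.card H).factorial :=
  (relIndex_dvd_card_mulAut H).trans (card_mulAut_dvd_factorial H)

/-- `|N_G(H) : C_G(H)|` divides `|G|`. -/
theorem relIndex_dvd_card_group {G : Type*} [Group G] [Finite G] (H : Subgroup G) :
    (Subgroup.centralizer (H : Set G)).relIndex (Subgroup.normalizer (H : Set G)) ∣ Nat.card G :=
  (Subgroup.relIndex_dvd_card _ _).trans (Subgroup.card_subgroup_dvd_card _)

/-- for an abelian Sylow `p`-subgroup, `|N_G(P) : C_G(P)|` is prime to `p`. -/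
theorem relIndex_coprime_sylow {G : Type*} [Group G] [Finite G] {p : ℕ} [Fact p.Prime] (P : Sylow p G)
    (hP : IsMulCommutative (P : Subgroup G)) :
    Nat.Coprime ((Subgroup.centralizer ((P : Subgroup G) : Set G)).relIndex
      (Subgroup.normalizer ((P : Subgroup G) : Set G))) p := by
  have hPc : (P : Subgroup G) ≤ Subgroup.centralizer ((P : Subgroup G) : Set G) :=
    Subgroup.le_centralizer (P : Subgroup G)
  apply Nat.Coprime.coprime_dvd_left (Subgroup.relIndex_dvd_of_le_left _ hPc)
  apply Nat.Coprime.coprime_dvd_left (Subgroup.relIndex_dvd_index_of_le Subgroup.le_normalizer)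
  rw [Nat.coprime_comm, Nat.Prime.coprime_iff_not_dvd Fact.out]
  exact P.not_dvd_index

/-- Burnside: `N_G(P) ≤ C_G(P)` gives a normal `p`-complement. -/
theorem hasNormalPComplement_of_le {G : Type*} [Group G] [Finite G] {p : ℕ} [Fact p.Prime] (P : Sylow p G)
    (hN : Subgroup.normalizer ((P : Subgroup G) : Set G) ≤ Subgroup.centralizer ((P : Subgroup G) : Set G)) :
    Cfsg.HasNormalPComplement p G :=
  ⟨P, (MonoidHom.transferSylow P hN).ker, inferInstance, MonoidHom.ker_transferSylow_isComplement' P hN⟩

/-- Burnside, in the index form. -/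
theorem hasNormalPComplement_of_relIndex {G : Type*} [Group G] [Finite G] {p : ℕ} [Fact p.Prime] (P : Sylow p G)
    (h : (Subgroup.centralizer ((P : Subgroup G) : Set G)).relIndex
      (Subgroup.normalizer ((P : Subgroup G) : Set G)) = 1) :
    Cfsg.HasNormalPComplement p G :=
  hasNormalPComplement_of_le P (Subgroup.relIndex_eq_one.mp h)

end Cfsg.Agent.Lib.Helper24
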