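import Mathlib
import Cfsg.Agent.Lib.Helper24.TranspFstar
import Cfsg.Prelude.Def_FischerSpaces

/-!
# Primitivity of 3-transposition groups on the class `D` (helper24)

Blocks of imprimitivity for the conjugation action on a class `D` of 3-transpositions.

* `IsBlk.cj_mul_mul`: for a block `B ⊆ D` and `b, b' ∈ B` the product `b b'` fixes every
  conjugate of `B`.
* `TC.primitive_of_index_le_two`: if the normal component `L` has index at most 2 then `G` is
  primitive on `D`.
* `TC.index_le_two_of_connected`: if the commuting graph is connected, `L` has index at most 2.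
-/

set_option autoImplicit false

namespace Cfsg.Agent.Lib.Helper24

open Cfsg
open scoped commutatorElement

universe u

section

variable {G : Type*} [Group G]

/-- the conjugate `g B g⁻¹` of a set -/
def cj (g : G) (B : Set G) : Set G := (fun x => g * x * g⁻¹) '' B

theorem mem_cj {g x : G} {B : Set G} : x ∈ cj g B ↔ g⁻¹ * x * g ∈ B := by
  constructor
  · rintro ⟨y, hy, rfl⟩
    have e : g⁻¹ * (g * y * g⁻¹) * g = y := by group
    rw [e]; exact hy
  · intro h
    exact ⟨g⁻¹ * x * g, h, by group⟩

theorem conj_mem_cj {g x : G} {B : Set G} (hx : x ∈ B) : g * x * g⁻¹ ∈ cj g B := ⟨x, hx, rfl⟩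

theorem cj_mul (g h : G) (B : Set G) : cj (g * h) B = cj g (cj h B) := by
  ext x
  rw [mem_cj, mem_cj, mem_cj]
  have e : (g * h)⁻¹ * x * (g * h) = h⁻¹ * (g⁻¹ * x * g) * h := by group
  rw [e]

theorem cj_one (B : Set G) : cj 1 B = B := by
  ext x
  rw [mem_cj]
  simp

theorem cj_inv_cj (g : G) (B : Set G) : cj g⁻¹ (cj g B) = B := by
  rw [← cj_mul, inv_mul_cancel, cj_one]

theorem cj_cj_inv (g : G) (B : Set G) : cj g (cj g⁻¹ B) = B := by
  rw [← cj_mul, mul_inv_cancel, cj_one]

/-- `B` is a block for the conjugation action -/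
def IsBlk (B : Set G) : Prop := ∀ g : G, cj g B = B ∨ Disjoint (cj g B) B

theorem IsBlk.eq_of_mem {B : Set G} (hB : IsBlk B) {g h x : G} (hg : x ∈ cj g B)
    (hh : x ∈ cj h B) : cj g B = cj h B := by
  have h1 : h⁻¹ * x * h ∈ B := mem_cj.mp hh
  have h2 : h⁻¹ * x * h ∈ cj (h⁻¹ * g) B := by
    rw [mem_cj]
    have e : (h⁻¹ * g)⁻¹ * (h⁻¹ * x * h) * (h⁻¹ * g) = g⁻¹ * x * g := by group
    rw [e]
    exact mem_cj.mp hg
  rcases hB (h⁻¹ * g) with heq | hdis
  · have := congrArg (cj h) heq
    rw [← cj_mul] at this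
    have e : h * (h⁻¹ * g) = g := by group
    rwa [e] at this
  · exact absurd h1 (Set.disjoint_left.mp hdis h2)

theorem IsBlk.cj_self {B : Set G} (hB : IsBlk B) {b : G} (hb : b ∈ B) : cj b B = B := by
  have h1 : b ∈ cj b B := by
    rw [mem_cj]
    have e : b⁻¹ * b * b = b := by group
    rw [e]; exact hb
  have h2 : b ∈ cj 1 B := by rw [cj_one]; exact hb
  have := hB.eq_of_mem h1 h2
  rwa [cj_one] at this

variable {D : Set G}

theorem TD.cj_subset (h : TD D) {B : Set G} (hBD : B ⊆ D) (g : G) : cj g B ⊆ D := by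
  rintro x ⟨y, hy, rfl⟩
  exact h.conj g y (hBD hy)

/-- a member of `D` commuting with one element of the block `B` but not with another lies
in `B` -/
theorem IsBlk.mem_of_commute_of_not_commute (h : TD D) {B : Set G} (hB : IsBlk B) (hBD : B ⊆ D)
    {c b₀ b₁ : G} (hc : c ∈ D) (hb₀ : b₀ ∈ B) (hb₁ : b₁ ∈ B) (h0 : Commute c b₀)
    (h1 : ¬ Commute c b₁) : c ∈ B := by
  have hcB : cj c B = B := by
    have m1 : b₀ ∈ cj c B := by
      rw [mem_cj]
      have e : c⁻¹ * b₀ * c = b₀ := by
        calc c⁻¹ * b₀ * c = c⁻¹ * (b₀ * c) := by group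
          _ = c⁻¹ * (c * b₀) := by rw [h0.eq]
          _ = b₀ := by group
      rw [e]; exact hb₀
    have m2 : b₀ ∈ cj 1 B := by rw [cj_one]; exact hb₀
    have := hB.eq_of_mem m1 m2
    rwa [cj_one] at this
  have m3 : c * b₁ * c⁻¹ ∈ B := by
    rw [← hcB]; exact conj_mem_cj hb₁
  have e : c * b₁ * c⁻¹ = b₁ * c * b₁⁻¹ := by
    rw [h.inv hc, h.inv (hBD hb₁)]
    exact h.braid hc (hBD hb₁) h1
  rw [e] at m3
  have m4 : c ∈ cj b₁ B := by
    rw [mem_cj]
    rw [h.inv (hBD hb₁)]
    rw [h.inv (hBD hb₁)] at m3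
    exact m3
  rwa [hB.cj_self hb₁] at m4

/-- the product of two elements of a block fixes every conjugate of the block -/
theorem IsBlk.cj_mul_mul (h : TD D) {B : Set G} (hB : IsBlk B) (hBD : B ⊆ D) {b b' : G}
    (hb : b ∈ B) (hb' : b' ∈ B) (g : G) : cj (b * b') (cj g B) = cj g B := by
  have hbD := hBD hb
  have hb'D := hBD hb'
  rcases hB g with heq | hdis
  · rw [heq, cj_mul, hB.cj_self hb', hB.cj_self hb]
  · -- `c ∈ cj g B`, outside `B`
    have hc : g * b * g⁻¹ ∈ cj g B := conj_mem_cj hb
    have hcD : g * b * g⁻¹ ∈ D := h.conj g b hbD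
    have hcB : g * b * g⁻¹ ∉ B := fun hm => Set.disjoint_left.mp hdis hc hm
    -- for `x ∈ B`: `cj x (cj g B)` depends only on whether `c` commutes with `B`
    by_cases hall : ∀ x ∈ B, Commute (g * b * g⁻¹) x
    · have fix : ∀ x ∈ B, cj x (cj g B) = cj g B := by
        intro x hx
        have m1 : g * b * g⁻¹ ∈ cj x (cj g B) := by
          rw [mem_cj]
          have e : x⁻¹ * (g * b * g⁻¹) * x = g * b * g⁻¹ := by
            calc x⁻¹ * (g * b * g⁻¹) * x = x⁻¹ * ((g * b * g⁻¹) * x) := by group
              _ = x⁻¹ * (x * (g * b * g⁻¹)) := by rw [(hall x hx).eq]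
              _ = g * b * g⁻¹ := by group
          rw [e]; exact hc
        rw [← cj_mul] at m1 ⊢
        exact hB.eq_of_mem m1 hc
      rw [cj_mul, fix b' hb', fix b hb]
    · have hnone : ∀ x ∈ B, ¬ Commute (g * b * g⁻¹) x := by
        intro x hx hcx
        push Not at hall
        obtain ⟨x', hx', hncx'⟩ := hall
        exact hcB (hB.mem_of_commute_of_not_commute h hBD hcD hx hx' hcx hncx')
      have mv : ∀ x ∈ B, cj x (cj g B) = cj (g * b * g⁻¹) B := by
        intro x hx
        have hxD := hBD hx
        have hnx : ¬ Commute x (g * b * g⁻¹) := fun hc' => hnone x hx hc'.symm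
        have m1 : x * (g * b * g⁻¹) * x⁻¹ ∈ cj x (cj g B) := conj_mem_cj hc
        have m2 : x * (g * b * g⁻¹) * x⁻¹ ∈ cj (g * b * g⁻¹) B := by
          have e : x * (g * b * g⁻¹) * x⁻¹ = (g * b * g⁻¹) * x * (g * b * g⁻¹)⁻¹ := by
            rw [h.inv hxD, h.inv hcD]
            exact h.braid hxD hcD hnx
          rw [e]
          exact conj_mem_cj hx
        rw [← cj_mul] at m1 ⊢
        exact hB.eq_of_mem m1 m2
      rw [cj_mul, mv b' hb', ← mv b hb, ← cj_mul, h.sq b hbD, cj_one]

/-- the subgroup of elements fixing every conjugate of `B` -/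
def blkKer (B : Set G) : Subgroup G where
  carrier := {n | ∀ g : G, cj n (cj g B) = cj g B}
  one_mem' := fun g => cj_one _
  mul_mem' := by
    intro a b ha hb g
    rw [cj_mul, hb g, ha g]
  inv_mem' := by
    intro a ha g
    have := congrArg (cj a⁻¹) (ha g)
    rw [cj_inv_cj] at this
    exact this.symm

theorem mem_blkKer {B : Set G} {n : G} : n ∈ blkKer B ↔ ∀ g : G, cj n (cj g B) = cj g B :=
  Iff.rfl

theorem blkKer_normal (B : Set G) : (blkKer B).Normal := by
  constructor
  intro n hn k
  rw [mem_blkKer] at hn ⊢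
  intro g
  have e : cj g B = cj k (cj (k⁻¹ * g) B) := by
    rw [← cj_mul]
    have : k * (k⁻¹ * g) = g := by group
    rw [this]
  rw [e, cj_mul, cj_mul, cj_inv_cj, hn]

/-- the stabilizer of `B` -/
def blkStab (B : Set G) : Subgroup G where
  carrier := {n | cj n B = B}
  one_mem' := cj_one _
  mul_mem' := by
    intro a b ha hb
    show cj (a * b) B = B
    rw [cj_mul, hb, ha]
  inv_mem' := by
    intro a ha
    have := congrArg (cj a⁻¹) ha
    rw [cj_inv_cj] at this
    exact this.symm

theorem mem_blkStab {B : Set G} {n : G} : n ∈ blkStab B ↔ cj n B = B := Iff.rfl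

theorem blkKer_le_blkStab (B : Set G) : blkKer B ≤ blkStab B := by
  intro n hn
  have := hn 1
  rwa [cj_one] at this

end

section

variable {G : Type u} [Group G] [Finite G] {D : Set G}

/-- two distinct elements of a block cannot have product centralizing a normal component -/
theorem TC.block_mul_not_centralize (h : TC D) (L : Subgroup G) [hLn : L.Normal]
    (hLc : Cfsg.IsComponent L) {b b' : G} (hb : b ∈ D) (hb' : b' ∈ D) (hne : b ≠ b')
    (hc : ∀ g ∈ L, Commute (b * b') g) : False := by
  have ht1 : b * b' ≠ 1 := by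
    intro h1
    apply hne
    have := eq_inv_of_mul_eq_one_right h1
    rw [this, h.td.inv hb]
  have hdu : b * (b * b') ∈ D := by rw [h.td.sqL hb]; exact hb'
  have hp := Cfsg.Agent.Lib.Helper22.IsComponent.perfect hLc
  have hl := Cfsg.Agent.Lib.Helper22.component_le_layer hLc
  have h1 := Cfsg.Agent.Lib.Helper22.IsComponent.ne_bot hLc
  rcases h.td.h23 b hb b' hb' with h2 | h3
  · obtain ⟨x, hx, hx2⟩ := h.exists_sq_ne_one L hp hl h1 hb
    exact hx2 (h.td.sq_of_commuting_involution L hb hdu ht1 h2 hc hx)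
  · obtain ⟨x, hx, hx3⟩ := h.exists_cube_ne_one L hp hl h1 hb
    exact hx3 (h.td.cube_of_commuting_three L hb hdu ht1 h3 hc hx)

/-- for a block `B` with two distinct elements, the normal component `L` fixes every conjugate
of `B` -/
theorem TC.component_le_blkKer (h : TC D) (L : Subgroup G) [hLn : L.Normal]
    (hLc : Cfsg.IsComponent L) {B : Set G} (hBD : B ⊆ D) (hB : IsBlk B) {b b' : G}
    (hb : b ∈ B) (hb' : b' ∈ B) (hne : b ≠ b') : L ≤ blkKer B := by
  have hMn : (blkKer B).Normal := blkKer_normal B
  have ht : b * b' ∈ blkKer B := fun g => hB.cj_mul_mul h.td hBD hb hb' g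
  rcases Cfsg.Agent.Lib.Helper22.component_le_or_commute_normal hLc hMn with hle | hcomm
  · exact hle
  · exfalso
    rw [Subgroup.commutator_eq_bot_iff_le_centralizer] at hcomm
    apply h.block_mul_not_centralize L hLc (hBD hb) (hBD hb') hne
    intro g hg
    have := hcomm hg
    rw [Subgroup.mem_centralizer_iff] at this
    exact this _ ht

/-- a block fixed by all of `G` is empty or all of `D` -/
theorem TC.block_eq_of_fixed (h : TC D) {B : Set G} (hBD : B ⊆ D) {b : G} (hb : b ∈ B)
    (hall : ∀ g : G, cj g B = B) : B = D := by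
  apply Set.Subset.antisymm hBD
  intro e he
  obtain ⟨g, rfl⟩ := h.cls b (hBD hb) e he
  rw [← hall g]
  exact conj_mem_cj hb

/-- if the normal component `L` has index at most 2 then `G` is primitive on `D` -/
theorem TC.primitive_of_index_le_two (h : TC D) (hD2 : ∃ a ∈ D, ∃ b ∈ D, a ≠ b)
    (L : Subgroup G) [hLn : L.Normal] (hLc : Cfsg.IsComponent L) (hidx : L.index ≤ 2) :
    Cfsg.IsPrimitiveUnderConj D := by
  refine ⟨h.cls, hD2, ?_⟩
  intro B hBD hB
  by_cases hsub : B.Subsingleton
  · exact Or.inl hsub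
  right
  rw [Set.not_subsingleton_iff] at hsub
  obtain ⟨b, hb, b', hb', hne⟩ := hsub
  have hBlk : IsBlk B := hB
  have hle := h.component_le_blkKer L hLc hBD hBlk hb hb' hne
  have hLS : ∀ x ∈ L, cj x B = B := fun x hx => blkKer_le_blkStab B (hle hx)
  have hDS : ∀ e ∈ D, e ∈ blkStab B := by
    intro e he
    by_cases hbL : b ∈ L
    · obtain ⟨g, rfl⟩ := h.cls b (hBD hb) e he
      exact hLS _ (hLn.conj_mem b hbL g)
    · have heL : e ∉ L := by
        intro heL
        obtain ⟨g, hg⟩ := h.cls e he b (hBD hb)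
        apply hbL
        rw [← hg]
        exact hLn.conj_mem e heL g
      have hidx2 : L.index = 2 := by
        have h0 : L.index ≠ 0 := Subgroup.index_ne_zero_of_finite
        have h1 : L.index ≠ 1 := by
          intro h1
          rw [Subgroup.index_eq_one] at h1
          apply hbL
          rw [h1]
          exact Subgroup.mem_top b
        omega
      have hm : e * b ∈ L := by
        rw [Subgroup.mul_mem_iff_of_index_two hidx2]
        exact ⟨fun hx => absurd hx heL, fun hx => absurd hx hbL⟩
      have h1 : e * b ∈ blkStab B := hLS _ hm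
      have h2 : b ∈ blkStab B := hBlk.cj_self hb
      have h3 := mul_mem h1 (inv_mem h2)
      have e' : e * b * b⁻¹ = e := by group
      rwa [e'] at h3
  have hall : ∀ g : G, cj g B = B := by
    intro g
    have h1 : Subgroup.closure D ≤ blkStab B := by
      rw [Subgroup.closure_le]
      exact hDS
    rw [h.gen] at h1
    exact h1 (Subgroup.mem_top g)
  exact h.block_eq_of_fixed hBD hb hall

/-- if the commuting graph is connected, all members of `D` lie in one coset of the normal
component `L` -/
theorem TC.mul_mem_of_connected (h : TC D) (L : Subgroup G) [hLn : L.Normal]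
    (hLc : Cfsg.IsComponent L) (hconn : (Cfsg.commutingGraph D).Connected) {a b : G}
    (ha : a ∈ D) (hb : b ∈ D) : a⁻¹ * b ∈ L := by
  have key : ∀ u v : D, (Cfsg.commutingGraph D).Walk u v → (u : G)⁻¹ * (v : G) ∈ L := by
    intro u v p
    induction p with
    | nil => simp
    | cons hadj p ih =>
      rename_i u w v
      have hc : Commute (u : G) (w : G) := by
        unfold Cfsg.commutingGraph at hadj
        rw [SimpleGraph.fromRel_adj] at hadj
        rcases hadj.2 with h1 | h1
        · exact h1
        · exact h1.symm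
      have h1 : (u : G) * w * (u : G)⁻¹ * (w : G)⁻¹ ∈ L := by
        rw [hc.eq]
        have e : (w : G) * u * (u : G)⁻¹ * (w : G)⁻¹ = 1 := by group
        rw [e]; exact one_mem L
      have h2 := h.mul_mem_of_commutator_mem L hLc u.2 w.2 h1
      have h3 := mul_mem h2 ih
      have e : (u : G)⁻¹ * w * ((w : G)⁻¹ * v) = (u : G)⁻¹ * v := by group
      rwa [e] at h3
  obtain ⟨p⟩ := hconn.preconnected ⟨a, ha⟩ ⟨b, hb⟩
  exact key _ _ p

/-- if all members of `D` lie in one coset of the normal subgroup `L` then `L` has index at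
most 2 -/
theorem TC.index_le_two_of_coset (h : TC D) (L : Subgroup G) [hLn : L.Normal] {d : G}
    (hd : d ∈ D) (hco : ∀ e ∈ D, d⁻¹ * e ∈ L) : L.index ≤ 2 := by
  have hπd2 : (QuotientGroup.mk' L d) * (QuotientGroup.mk' L d) = 1 := by
    rw [← map_mul, h.td.sq d hd, map_one]
  have hall : ∀ g : G, QuotientGroup.mk' L g = 1 ∨ QuotientGroup.mk' L g = QuotientGroup.mk' L d := by
    intro g
    have hg : g ∈ Subgroup.closure D := by rw [h.gen]; exact Subgroup.mem_top g
    induction hg using Subgroup.closure_induction with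
    | mem e he =>
      right
      rw [QuotientGroup.mk'_apply, QuotientGroup.mk'_apply]
      exact (QuotientGroup.eq.mpr (hco e he)).symm
    | one => left; exact map_one _
    | mul x y _ _ ihx ihy =>
      rw [map_mul]
      rcases ihx with hx | hx <;> rcases ihy with hy | hy
      · left; rw [hx, hy, one_mul]
      · right; rw [hx, hy, one_mul]
      · right; rw [hx, hy, mul_one]
      · left; rw [hx, hy, hπd2]
    | inv x _ ihx =>
      rw [map_inv]
      rcases ihx with hx | hx
      · left; rw [hx, inv_one]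
      · right; rw [hx]; exact inv_eq_of_mul_eq_one_left hπd2
  have hsurj : Function.Surjective (fun b : Bool => if b then QuotientGroup.mk' L d else 1) := by
    intro q
    obtain ⟨g, rfl⟩ := QuotientGroup.mk'_surjective L q
    rcases hall g with hg | hg
    · exact ⟨false, by simp [hg]⟩
    · exact ⟨true, by simp [hg]⟩
  have := Nat.card_le_card_of_surjective _ hsurj
  simpa [Subgroup.index] using this

/-- if the commuting graph is connected, the normal component `L` has index at most 2 -/
theorem TC.index_le_two_of_connected (h : TC D) (L : Subgroup G) [hLn : L.Normal]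
    (hLc : Cfsg.IsComponent L) (hconn : (Cfsg.commutingGraph D).Connected) : L.index ≤ 2 := by
  obtain ⟨⟨d, hd⟩⟩ := hconn.nonempty
  exact h.index_le_two_of_coset L hd (fun e he => h.mul_mem_of_connected L hLc hconn hd he)

end

end Cfsg.Agent.Lib.Helper24
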