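import Mathlib
import Cfsg.Agent.Lib.Helper24.TranspPrim

/-!
# Primitivity of 3-transposition groups, II (helper24)

* `TC.connected_of_primitive`: primitive of width at least 2 implies connected commuting graph.
* `TC.pCore_two_le_center_of_primitive`, `TC.pCore_three_le_center_of_primitive`.
* `TC.primitive_of_cores_of_connected`.
* `TC.primitive_of_simple_commutator`, `TC.simple_commutator_of_primitive`.
-/

set_option autoImplicit false

namespace Cfsg.Agent.Lib.Helper24

open Cfsg
open scoped commutatorElement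

universe u

section

variable {G : Type*} [Group G] {D : Set G}

/-- conjugation as a graph homomorphism of the commuting graph -/
def conjHom (h : TD D) (g : G) : Cfsg.commutingGraph D →g Cfsg.commutingGraph D where
  toFun := fun x => ⟨g * x.1 * g⁻¹, h.conj g x.1 x.2⟩
  map_rel' := by
    intro u v huv
    unfold Cfsg.commutingGraph at huv ⊢
    rw [SimpleGraph.fromRel_adj] at huv ⊢
    refine ⟨?_, ?_⟩
    · intro heq
      apply huv.1
      apply Subtype.ext
      have := congrArg Subtype.val heq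
      simpa using this
    · rcases huv.2 with hc | hc
      · left; exact (Commute.conj_iff g).mpr hc
      · right; exact (Commute.conj_iff g).mpr hc

/-- the connected component of `a` in the commuting graph, as a set of group elements -/
def compSet (D : Set G) (a : D) : Set G :=
  {x | ∃ hx : x ∈ D, (Cfsg.commutingGraph D).Reachable a ⟨x, hx⟩}

theorem compSet_subset (a : D) : compSet D a ⊆ D := fun _ hx => hx.1

theorem compSet_isBlk (h : TD D) (a : D) : IsBlk (compSet D a) := by
  intro g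
  by_cases hdis : Disjoint (cj g (compSet D a)) (compSet D a)
  · exact Or.inr hdis
  left
  rw [Set.not_disjoint_iff] at hdis
  obtain ⟨y, hy1, hy2⟩ := hdis
  obtain ⟨x, ⟨hxD, hx⟩, rfl⟩ := hy1
  obtain ⟨hyD, hy⟩ := hy2
  ext z
  constructor
  · rintro ⟨w, ⟨hwD, hw⟩, rfl⟩
    refine ⟨h.conj g w hwD, ?_⟩
    have r1 : (Cfsg.commutingGraph D).Reachable ⟨x, hxD⟩ ⟨w, hwD⟩ := hx.symm.trans hw
    have r2 := r1.map (conjHom h g)
    exact hy.trans r2
  · rintro ⟨hzD, hz⟩
    rw [mem_cj]
    have hzD' : g⁻¹ * z * g ∈ D := by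
      have := h.conj g⁻¹ z hzD
      rwa [inv_inv] at this
    refine ⟨hzD', ?_⟩
    have r1 : (Cfsg.commutingGraph D).Reachable ⟨g * x * g⁻¹, hyD⟩ ⟨z, hzD⟩ := hy.symm.trans hz
    have r2 := r1.map (conjHom h g⁻¹)
    have e1 : conjHom h g⁻¹ ⟨g * x * g⁻¹, hyD⟩ = ⟨x, hxD⟩ := by
      apply Subtype.ext
      show g⁻¹ * (g * x * g⁻¹) * g⁻¹⁻¹ = x
      group
    have e2 : conjHom h g⁻¹ ⟨z, hzD⟩ = ⟨g⁻¹ * z * g, hzD'⟩ := by
      apply Subtype.ext
      show g⁻¹ * z * g⁻¹⁻¹ = g⁻¹ * z * g
      group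
    rw [e1, e2] at r2
    exact hx.trans r2

/-- primitive of width at least 2 implies connected commuting graph -/
theorem TD.connected_of_primitive (h : TD D) (hprim : Cfsg.IsPrimitiveUnderConj D)
    (hw : ∃ a ∈ D, ∃ b ∈ D, a ≠ b ∧ Commute a b) : (Cfsg.commutingGraph D).Connected := by
  obtain ⟨a, ha, b, hb, hab, hc⟩ := hw
  have hblk := compSet_isBlk h ⟨a, ha⟩
  have haB : a ∈ compSet D ⟨a, ha⟩ := ⟨ha, SimpleGraph.Reachable.refl _⟩
  have hbB : b ∈ compSet D ⟨a, ha⟩ := by
    refine ⟨hb, SimpleGraph.Adj.reachable ?_⟩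
    unfold Cfsg.commutingGraph
    rw [SimpleGraph.fromRel_adj]
    exact ⟨fun heq => hab (congrArg Subtype.val heq), Or.inl hc⟩
  rcases hprim.2.2 (compSet D ⟨a, ha⟩) (compSet_subset _) hblk with hsub | heq
  · exact absurd (hsub haB hbB) hab
  · have hne : Nonempty D := ⟨⟨a, ha⟩⟩
    refine ⟨?_⟩
    intro u v
    have hu : (u : G) ∈ compSet D ⟨a, ha⟩ := by rw [heq]; exact u.2
    have hv : (v : G) ∈ compSet D ⟨a, ha⟩ := by rw [heq]; exact v.2
    obtain ⟨_, hu'⟩ := hu
    obtain ⟨_, hv'⟩ := hv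
    exact hu'.symm.trans hv'

/-- the orbit of `d` under conjugation by the subgroup `N` -/
def orbN (N : Subgroup G) (d : G) : Set G := {y | ∃ x ∈ N, y = x * d * x⁻¹}

theorem orbN_isBlk (N : Subgroup G) [hN : N.Normal] (d : G) : IsBlk (orbN N d) := by
  intro g
  by_cases hdis : Disjoint (cj g (orbN N d)) (orbN N d)
  · exact Or.inr hdis
  left
  rw [Set.not_disjoint_iff] at hdis
  obtain ⟨y, hy1, hy2⟩ := hdis
  obtain ⟨_, ⟨x, hx, rfl⟩, rfl⟩ := hy1
  obtain ⟨x', hx', hy⟩ := hy2
  have hy : g * (x * d * x⁻¹) * g⁻¹ = x' * d * x'⁻¹ := hy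
  -- `g d g⁻¹ = n⁻¹ d n` with `n = x'⁻¹ (g x g⁻¹)`
  have hn : x'⁻¹ * (g * x * g⁻¹) ∈ N := mul_mem (inv_mem hx') (hN.conj_mem x hx g)
  have hd : g * d * g⁻¹ = (x'⁻¹ * (g * x * g⁻¹))⁻¹ * d * (x'⁻¹ * (g * x * g⁻¹)) := by
    have e : d = x'⁻¹ * (g * (x * d * x⁻¹) * g⁻¹) * x' := by rw [hy]; group
    conv_rhs => rw [e]
    group
  ext z
  constructor
  · rintro ⟨_, ⟨w, hw, rfl⟩, rfl⟩
    refine ⟨g * w * g⁻¹ * (x'⁻¹ * (g * x * g⁻¹))⁻¹, mul_mem (hN.conj_mem w hw g) (inv_mem hn), ?_⟩
    calc g * (w * d * w⁻¹) * g⁻¹ = (g * w * g⁻¹) * (g * d * g⁻¹) * (g * w * g⁻¹)⁻¹ := by group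
      _ = (g * w * g⁻¹) * ((x'⁻¹ * (g * x * g⁻¹))⁻¹ * d * (x'⁻¹ * (g * x * g⁻¹))) *
          (g * w * g⁻¹)⁻¹ := by rw [← hd]
      _ = _ := by group
  · rintro ⟨w, hw, rfl⟩
    rw [mem_cj]
    refine ⟨g⁻¹ * (w * (x'⁻¹ * (g * x * g⁻¹))) * g, ?_, ?_⟩
    · have := hN.conj_mem _ (mul_mem hw hn) g⁻¹
      rwa [inv_inv] at this
    · have e : d = (x'⁻¹ * (g * x * g⁻¹)) * (g * d * g⁻¹) * (x'⁻¹ * (g * x * g⁻¹))⁻¹ := by
        rw [hd]; group
      calc g⁻¹ * (w * d * w⁻¹) * g
          = g⁻¹ * (w * ((x'⁻¹ * (g * x * g⁻¹)) * (g * d * g⁻¹) * (x'⁻¹ * (g * x * g⁻¹))⁻¹) *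
            w⁻¹) * g := by rw [← e]
        _ = _ := by group

theorem orbN_subset (h : TD D) (N : Subgroup G) {d : G} (hd : d ∈ D) : orbN N d ⊆ D := by
  rintro _ ⟨x, _, rfl⟩
  exact h.conj x d hd

theorem self_mem_orbN (N : Subgroup G) (d : G) : d ∈ orbN N d := ⟨1, one_mem N, by group⟩

/-- in a primitive group a normal subgroup is central or transitive on `D` -/
theorem TC.normal_le_center_or_orbit (h : TC D) (hprim : Cfsg.IsPrimitiveUnderConj D)
    (N : Subgroup G) [hN : N.Normal] {d : G} (hd : d ∈ D) :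
    N ≤ Subgroup.center G ∨ orbN N d = D := by
  rcases hprim.2.2 (orbN N d) (orbN_subset h.td N hd) (orbN_isBlk N d) with hsub | heq
  · left
    apply h.le_center_of_commute_one N hd
    intro x hx
    apply h.td.commute_of_conj_eq
    exact hsub ⟨x, hx, rfl⟩ (self_mem_orbN N d)
  · exact Or.inr heq

/-- in a primitive group `O₂(G)` is central -/
theorem TC.pCore_two_le_center_of_primitive (h : TC D)
    (hprim : Cfsg.IsPrimitiveUnderConj D) : Cfsg.pCore 2 G ≤ Subgroup.center G := by
  have : Fact (Nat.Prime 2) := ⟨Nat.prime_two⟩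
  have hn := pCore_normal_h24 2 G
  have hP := pCore_isPGroup_h24 2 G
  obtain ⟨a, ha, b, hb, hab⟩ := hprim.2.1
  rcases h.normal_le_center_or_orbit hprim (Cfsg.pCore 2 G) ha with hc | horb
  · exact hc
  · exfalso
    -- `a` commutes with all of `D`
    have hall : ∀ e ∈ D, Commute a e := by
      intro e he
      rw [← horb] at he
      obtain ⟨x, hx, rfl⟩ := he
      have hm := h.td.mul_conj_mem (Cfsg.pCore 2 G) ha hx
      rcases h.td.h23 a ha _ (h.td.conj x a ha) with h2 | h3
      · exact h.td.commute_of_sq ha (h.td.conj x a ha) h2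
      · have h1 := eq_one_of_pow_prime_of_isPGroup Nat.prime_three Nat.prime_two (by omega)
          hP hm h3
        have e1 : x * a * x⁻¹ = a := by
          have := eq_inv_of_mul_eq_one_right h1
          rw [this, h.td.inv ha]
        rw [e1]
    have hcen : ∀ g : G, Commute a g := by
      intro g
      have h1 : Subgroup.closure D ≤ Subgroup.centralizer ({a} : Set G) := by
        rw [Subgroup.closure_le]
        intro e he
        rw [SetLike.mem_coe, Subgroup.mem_centralizer_iff]
        intro y hy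
        rw [Set.mem_singleton_iff] at hy
        rw [hy]
        exact (hall e he).eq
      rw [h.gen] at h1
      have h2 := h1 (Subgroup.mem_top g)
      rw [Subgroup.mem_centralizer_iff] at h2
      exact h2 a rfl
    obtain ⟨g, hg⟩ := h.cls a ha b hb
    apply hab
    rw [← hg, (hcen g).eq.symm]
    group

/-- in a primitive group of width at least 2, `O₃(G)` is central -/
theorem TC.pCore_three_le_center_of_primitive (h : TC D)
    (hprim : Cfsg.IsPrimitiveUnderConj D) (hw : ∃ a ∈ D, ∃ b ∈ D, a ≠ b ∧ Commute a b) :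
    Cfsg.pCore 3 G ≤ Subgroup.center G := by
  have : Fact (Nat.Prime 3) := ⟨Nat.prime_three⟩
  have hn := pCore_normal_h24 3 G
  have hP := pCore_isPGroup_h24 3 G
  obtain ⟨a, ha, b, hb, hab, hc⟩ := hw
  rcases h.normal_le_center_or_orbit hprim (Cfsg.pCore 3 G) ha with hcen | horb
  · exact hcen
  · exfalso
    rw [← horb] at hb
    obtain ⟨x, hx, rfl⟩ := hb
    have hm := h.td.mul_conj_mem (Cfsg.pCore 3 G) ha hx
    have h2 : (a * (x * a * x⁻¹)) ^ 2 = 1 := by
      rw [hc.mul_pow, pow_two, pow_two, h.td.sq a ha, h.td.sq _ (h.td.conj x a ha), one_mul]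
    have h1 := eq_one_of_pow_prime_of_isPGroup Nat.prime_two Nat.prime_three (by omega)
      hP hm h2
    apply hab
    have := eq_inv_of_mul_eq_one_right h1
    rw [this, h.td.inv ha]

end

section

variable {G : Type u} [Group G] [Finite G] {D : Set G}

/-- central cores and connected commuting graph imply primitivity -/
theorem TC.primitive_of_cores_of_connected (h : TC D) (hD2 : ∃ a ∈ D, ∃ b ∈ D, a ≠ b)
    (h2 : Cfsg.pCore 2 G ≤ Subgroup.center G) (h3 : Cfsg.pCore 3 G ≤ Subgroup.center G)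
    (hconn : (Cfsg.commutingGraph D).Connected) : Cfsg.IsPrimitiveUnderConj D := by
  obtain ⟨L, hLn, hLc, -, -⟩ := h.exists_component hD2 h2 h3
  exact h.primitive_of_index_le_two hD2 L hLc (h.index_le_two_of_connected L hLc hconn)

/-- if `Z(G) = 1` and the commutator subgroup is simple, `G` is primitive on `D` -/
theorem TC.primitive_of_simple_commutator (h : TC D) (hD2 : ∃ a ∈ D, ∃ b ∈ D, a ≠ b)
    (hZ : Subgroup.center G = ⊥) (hs : IsSimpleGroup (commutator G)) :
    Cfsg.IsPrimitiveUnderConj D := by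
  refine ⟨h.cls, hD2, ?_⟩
  intro B hBD hB
  by_cases hsub : B.Subsingleton
  · exact Or.inl hsub
  right
  rw [Set.not_subsingleton_iff] at hsub
  obtain ⟨b, hb, b', hb', hne⟩ := hsub
  have hBlk : IsBlk B := hB
  have hMn : (blkKer B).Normal := blkKer_normal B
  have ht : b * b' ∈ blkKer B := fun g => hBlk.cj_mul_mul h.td hBD hb hb' g
  have hsn : ((blkKer B).subgroupOf (commutator G)).Normal := hMn.subgroupOf _
  rcases hsn.eq_bot_or_eq_top with hbot | htop
  · exfalso
    rw [Subgroup.subgroupOf_eq_bot] at hbot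
    have hcen : b * b' ∈ Subgroup.center G := by
      rw [Subgroup.mem_center_iff]
      intro g
      have m1 : ⁅g, b * b'⁆ ∈ blkKer B := by
        rw [commutatorElement_def]
        have := mul_mem (hMn.conj_mem _ ht g) (inv_mem ht)
        exact this
      have m2 : ⁅g, b * b'⁆ ∈ commutator G := by
        rw [commutator_def]
        exact Subgroup.commutator_mem_commutator (Subgroup.mem_top g) (Subgroup.mem_top _)
      have h1 : ⁅g, b * b'⁆ = 1 := by
        have := Subgroup.disjoint_def.mp hbot m1 m2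
        exact this
      exact (commutatorElement_eq_one_iff_mul_comm.mp h1)
    rw [hZ, Subgroup.mem_bot] at hcen
    apply hne
    have := eq_inv_of_mul_eq_one_right hcen
    rw [this, h.td.inv (hBD hb)]
  · rw [Subgroup.subgroupOf_eq_top] at htop
    have hDS : ∀ e ∈ D, e ∈ blkStab B := by
      intro e he
      obtain ⟨g, rfl⟩ := h.cls b (hBD hb) e he
      have m1 : ⁅g, b⁆ ∈ blkStab B := by
        apply blkKer_le_blkStab B
        apply htop
        rw [commutator_def]
        exact Subgroup.commutator_mem_commutator (Subgroup.mem_top g) (Subgroup.mem_top _)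
      have m2 : b ∈ blkStab B := hBlk.cj_self hb
      have m3 := mul_mem m1 m2
      have e' : ⁅g, b⁆ * b = g * b * g⁻¹ := by rw [commutatorElement_def]; group
      rwa [e'] at m3
    have hall : ∀ g : G, cj g B = B := by
      intro g
      have h1 : Subgroup.closure D ≤ blkStab B := by
        rw [Subgroup.closure_le]
        exact hDS
      rw [h.gen] at h1
      exact h1 (Subgroup.mem_top g)
    exact h.block_eq_of_fixed hBD hb hall

/-- the image of `G` in `G / L` when all members of `D` lie in one coset of `L` -/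
theorem TC.quot_cases (h : TC D) (L : Subgroup G) [hLn : L.Normal] {d : G}
    (hd : d ∈ D) (hco : ∀ e ∈ D, d⁻¹ * e ∈ L) (g : G) :
    QuotientGroup.mk' L g = 1 ∨ QuotientGroup.mk' L g = QuotientGroup.mk' L d := by
  have hπd2 : (QuotientGroup.mk' L d) * (QuotientGroup.mk' L d) = 1 := by
    rw [← map_mul, h.td.sq d hd, map_one]
  have hg : g ∈ Subgroup.closure D := by rw [h.gen]; exact Subgroup.mem_top g
  induction hg using Subgroup.closure_induction with
  | mem e he =>
    right
    rw [QuotientGroup.mk'_apply, QuotientGroup.mk'_apply]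
    exact (QuotientGroup.eq.mpr (hco e he)).symm
  | one => left; exact map_one _
  | mul x y _ _ ihx ihy =>
    rw [map_mul]
    rcases ihx with hx | hx <;> rcases ihy with hy | hy
    · left; rw [hx, hy, one_mul]
    · right; rw [hx, hy, one_mul]
    · right; rw [hx, hy, mul_one]
    · left; rw [hx, hy, hπd2]
  | inv x _ ihx =>
    rw [map_inv]
    rcases ihx with hx | hx
    · left; rw [hx, inv_one]
    · right; rw [hx]; exact inv_eq_of_mul_eq_one_left hπd2

/-- if `Z(G) = 1` and `G` is primitive on `D` of width at least 2, the commutator subgroup is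
simple -/
theorem TC.simple_commutator_of_primitive (h : TC D) (hZ : Subgroup.center G = ⊥)
    (hw : ∃ a ∈ D, ∃ b ∈ D, a ≠ b ∧ Commute a b) (hprim : Cfsg.IsPrimitiveUnderConj D) :
    IsSimpleGroup (commutator G) := by
  have hconn := h.td.connected_of_primitive hprim hw
  have h2 := h.pCore_two_le_center_of_primitive hprim
  have h3 := h.pCore_three_le_center_of_primitive hprim hw
  obtain ⟨L, hLn, hLc, -, -⟩ := h.exists_component hprim.2.1 h2 h3
  obtain ⟨⟨d, hd⟩⟩ := hconn.nonempty
  have hco : ∀ e ∈ D, d⁻¹ * e ∈ L := fun e he => h.mul_mem_of_connected L hLc hconn hd he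
  -- `G' = L`
  have hcomm : commutator G = L := by
    apply le_antisymm
    · rw [commutator_def, Subgroup.commutator_le]
      intro g₁ _ g₂ _
      rw [← QuotientGroup.eq_one_iff, ← QuotientGroup.mk'_apply, map_commutatorElement]
      rcases h.quot_cases L hd hco g₁ with h1 | h1 <;> rcases h.quot_cases L hd hco g₂ with h2 | h2
      · rw [h1, h2]; exact commutatorElement_self _
      · rw [h1]; exact commutatorElement_one_left _
      · rw [h2]; exact commutatorElement_one_right _
      · rw [h1, h2]; exact commutatorElement_self _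
    · rw [commutator_def, ← Cfsg.Agent.Lib.Helper22.IsComponent.perfect hLc]
      exact Subgroup.commutator_mono le_top le_top
  -- `Z(L) = 1`
  have hZL : Subgroup.center L = ⊥ := by
    rw [eq_bot_iff]
    rintro ⟨z, hz⟩ hzc
    have hA : (L ⊓ Subgroup.centralizer (L : Set G)).Normal := Subgroup.normal_inf_normal _ _
    have hAF : L ⊓ Subgroup.centralizer (L : Set G) ≤ Cfsg.fittingSubgroup G := by
      apply Cfsg.Agent.Lib.Helper22.le_fittingSubgroup_of_comm hA
      intro a ha b hb
      exact (Subgroup.mem_centralizer_iff.mp (Subgroup.mem_inf.mp hb).2 a (Subgroup.mem_inf.mp ha).1)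
    rw [h.fitting_eq_center h2 h3, hZ] at hAF
    have hzA : z ∈ L ⊓ Subgroup.centralizer (L : Set G) := by
      refine Subgroup.mem_inf.mpr ⟨hz, ?_⟩
      rw [Subgroup.mem_centralizer_iff]
      intro x hx
      have := Subgroup.mem_center_iff.mp hzc ⟨x, hx⟩
      exact congrArg Subtype.val this
    have := hAF hzA
    rw [Subgroup.mem_bot] at this
    rw [Subgroup.mem_bot]
    exact Subtype.ext this
  have hsimp : IsSimpleGroup (L ⧸ Subgroup.center L) := hLc.2.2
  have hLs : IsSimpleGroup L :=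
    ((QuotientGroup.quotientMulEquivOfEq hZL).trans QuotientGroup.quotientBot).symm.isSimpleGroup
  rw [hcomm]
  exact hLs

end

end Cfsg.Agent.Lib.Helper24
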