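import Mathlib
import Cfsg.Agent.Lib.Helper24.TranspPrim2

/-!
# Modules of the commuting graph of a primitive 3-transposition group (helper24)

A *module* is a subset `M ⊆ D` such that every member of `D` outside `M` commutes with all or
with none of the members of `M`.

* `TC.no_module`: a primitive 3-transposition group (with central `O₂`, `O₃`) has no module `M`
  with `2 ≤ |M|`, `M ≠ D`.
* `TD.isMod_dsub`: for a subgroup `H`, the members `t` of `D ∩ H` with `C_D(t) ⊆ H` form a module.
* `TC.dsubgroup_maximal`: in a primitive group of width at least 2, `⟨C_D(d)⟩` is a maximal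
  `D`-subgroup.
-/

set_option autoImplicit false

namespace Cfsg.Agent.Lib.Helper24

open Cfsg
open scoped commutatorElement

universe u

section

variable {G : Type*} [Group G] {D : Set G}

/-- a module of the commuting graph on `D` -/
def IsMod (D M : Set G) : Prop :=
  M ⊆ D ∧ ∀ c ∈ D, c ∉ M → (∀ m ∈ M, Commute c m) ∨ (∀ m ∈ M, ¬ Commute c m)

theorem IsMod.cj (h : TD D) {M : Set G} (hM : IsMod D M) (g : G) : IsMod D (cj g M) := by
  refine ⟨h.cj_subset hM.1 g, ?_⟩
  intro c hc hcM
  have hc' : g⁻¹ * c * g ∈ D := by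
    have := h.conj g⁻¹ c hc
    rwa [inv_inv] at this
  have hcM' : g⁻¹ * c * g ∉ M := fun hm => hcM (mem_cj.mpr hm)
  have key : ∀ m ∈ M, Commute c (g * m * g⁻¹) ↔ Commute (g⁻¹ * c * g) m := by
    intro m _
    have e : c = g * (g⁻¹ * c * g) * g⁻¹ := by group
    conv_lhs => rw [e]
    exact Commute.conj_iff g
  rcases hM.2 _ hc' hcM' with hall | hnone
  · left
    rintro _ ⟨m, hm, rfl⟩
    exact (key m hm).mpr (hall m hm)
  · right
    rintro _ ⟨m, hm, rfl⟩ hcm
    exact hnone m hm ((key m hm).mp hcm)

theorem IsMod.inter {M M' : Set G} (hM : IsMod D M) (hM' : IsMod D M') : IsMod D (M ∩ M') := by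
  refine ⟨fun x hx => hM.1 hx.1, ?_⟩
  intro c hc hcI
  by_cases hcM : c ∈ M
  · have hcM' : c ∉ M' := fun h' => hcI ⟨hcM, h'⟩
    rcases hM'.2 c hc hcM' with hall | hnone
    · exact Or.inl (fun m hm => hall m hm.2)
    · exact Or.inr (fun m hm => hnone m hm.2)
  · rcases hM.2 c hc hcM with hall | hnone
    · exact Or.inl (fun m hm => hall m hm.1)
    · exact Or.inr (fun m hm => hnone m hm.1)

theorem IsMod.diff {M M' : Set G} (hM : IsMod D M) (hM' : IsMod D M')
    (hne : (M' \ M).Nonempty) : IsMod D (M \ M') := by
  refine ⟨fun x hx => hM.1 hx.1, ?_⟩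
  intro c hc hcI
  by_cases hcM : c ∈ M
  · have hcM' : c ∈ M' := by
      by_contra h'
      exact hcI ⟨hcM, h'⟩
    obtain ⟨m', hm'M', hm'M⟩ := hne
    -- for `x ∈ M \ M'`: `x ~ c ↔ x ~ m'`, and `m'` is uniform on `M`
    have k1 : ∀ x ∈ M \ M', (Commute x c ↔ Commute x m') := by
      intro x hx
      rcases hM'.2 x (hM.1 hx.1) hx.2 with hall | hnone
      · exact ⟨fun _ => hall m' hm'M', fun _ => hall c hcM'⟩
      · exact ⟨fun hxc => absurd hxc (hnone c hcM'), fun hxm => absurd hxm (hnone m' hm'M')⟩
    rcases hM.2 m' (hM'.1 hm'M') hm'M with hall | hnone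
    · left
      intro x hx
      exact ((k1 x hx).mpr (hall x hx.1).symm).symm
    · right
      intro x hx hcx
      exact hnone x hx.1 ((k1 x hx).mp hcx.symm).symm
  · rcases hM.2 c hc hcM with hall | hnone
    · exact Or.inl (fun m hm => hall m hm.1)
    · exact Or.inr (fun m hm => hnone m hm.1)

/-- for a subgroup `H`, the members `t` of `D ∩ H` all of whose commuting partners lie in `H`
form a module -/
theorem TD.isMod_dsub (h : TD D) (H : Subgroup G) :
    IsMod D {t | t ∈ D ∧ t ∈ H ∧ ∀ y ∈ D, Commute t y → y ∈ H} := by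
  refine ⟨fun t ht => ht.1, ?_⟩
  intro c hc hcT
  by_cases hcH : c ∈ H
  · left
    have hex : ∃ y ∈ D, Commute c y ∧ y ∉ H := by
      by_contra hcon
      push Not at hcon
      exact hcT ⟨hc, hcH, hcon⟩
    obtain ⟨y, hy, hcy, hyH⟩ := hex
    rintro t ⟨ht, htH, htc⟩
    by_contra hnc
    have hnct : ¬ Commute t c := fun hc' => hnc hc'.symm
    have hnty : ¬ Commute t y := fun hc' => hyH (htc y hy hc')
    -- `w = y t c t y` commutes with `t`
    have hsq := h.sq
    have ycy : y * c * y = c := by
      calc y * c * y = c * (y * y) := by rw [← hcy.eq]; group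
        _ = c := by rw [hsq y hy, mul_one]
    have bty : t * y * t = y * t * y := h.braid ht hy hnty
    have btc : c * t * c = t * c * t := h.braid hc ht hnc
    have hwD : y * t * c * t * y ∈ D := by
      have := h.conj (y * t) c hc
      rw [mul_inv_rev, h.inv hy, h.inv ht] at this
      have e : y * t * c * (t * y) = y * t * c * t * y := by group
      rwa [e] at this
    have twt : t * (y * t * c * t * y) * t = y * t * c * t * y := by
      calc t * (y * t * c * t * y) * t = (t * y * t) * c * (t * y * t) := by group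
        _ = (y * t * y) * c * (y * t * y) := by rw [bty]
        _ = y * t * (y * c * y) * t * y := by group
        _ = y * t * c * t * y := by rw [ycy]
    have hwt : Commute t (y * t * c * t * y) := by
      show t * (y * t * c * t * y) = (y * t * c * t * y) * t
      calc t * (y * t * c * t * y) = t * (y * t * c * t * y) * (t * t) := by
            rw [hsq t ht, mul_one]
        _ = (t * (y * t * c * t * y) * t) * t := by group
        _ = (y * t * c * t * y) * t := by rw [twt]
    have hwH : y * t * c * t * y ∈ H := htc _ hwD hwt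
    have wcw : (y * t * c * t * y) * c * (y * t * c * t * y) = t * y * t := by
      calc (y * t * c * t * y) * c * (y * t * c * t * y)
          = y * t * c * t * (y * c * y) * t * c * t * y := by group
        _ = y * t * c * t * c * t * c * t * y := by rw [ycy]
        _ = y * t * (c * t * c) * t * c * t * y := by group
        _ = y * t * (t * c * t) * t * c * t * y := by rw [btc]
        _ = y * (t * t) * c * (t * t) * c * t * y := by group
        _ = y * (c * c) * t * y := by rw [hsq t ht]; group
        _ = y * t * y := by rw [hsq c hc]; group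
        _ = t * y * t := bty.symm
    have h1 : t * y * t ∈ H := by
      rw [← wcw]
      exact mul_mem (mul_mem hwH hcH) hwH
    apply hyH
    have h2 := mul_mem (mul_mem htH h1) htH
    have e : t * (t * y * t) * t = y := by
      calc t * (t * y * t) * t = (t * t) * y * (t * t) := by group
        _ = y := by rw [hsq t ht, one_mul, mul_one]
    rwa [e] at h2
  · right
    rintro t ⟨_, _, htc⟩ hct
    exact hcH (htc c hc hct.symm)

end

section

variable {G : Type u} [Group G] [Finite G] {D : Set G}

/-- a two-element module is impossible when `O₂(G)` and `O₃(G)` are central -/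
theorem TC.no_two_module (h : TC D) (h2 : Cfsg.pCore 2 G ≤ Subgroup.center G)
    (h3 : Cfsg.pCore 3 G ≤ Subgroup.center G) {s m : G} (hs : s ∈ D) (hm : m ∈ D)
    (hne : s ≠ m) (hmod : IsMod D {s, m}) : False := by
  obtain ⟨L, hLn, hLc, -, -⟩ := h.exists_component ⟨s, hs, m, hm, hne⟩ h2 h3
  have key : s * m ∈ Subgroup.center G → False := by
    intro hz
    apply h.block_mul_not_centralize L hLc hs hm hne
    intro g _
    exact (Subgroup.mem_center_iff.mp hz g).symm
  have hout : ∀ y ∈ D, y ≠ s → y ≠ m → (Commute y s ↔ Commute y m) := by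
    intro y hy hys hym
    have hyM : y ∉ ({s, m} : Set G) := by
      intro hmem
      rcases hmem with rfl | rfl
      · exact hys rfl
      · exact hym rfl
    rcases hmod.2 y hy hyM with hall | hnone
    · exact ⟨fun _ => hall m (by simp), fun _ => hall s (by simp)⟩
    · exact ⟨fun hc => absurd hc (hnone s (by simp)), fun hc => absurd hc (hnone m (by simp))⟩
  by_cases hc : Commute s m
  · apply key
    apply h2
    apply mul_mem_pCore_two h.td hs hm
    intro e he
    by_cases hes : e = s
    · rw [hes]; exact ⟨fun _ => hc.symm, fun _ => Commute.refl s⟩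
    by_cases hem : e = m
    · rw [hem]; exact ⟨fun _ => Commute.refl m, fun _ => hc⟩
    have := hout e he hes hem
    exact ⟨fun h1 => (this.mp h1.symm).symm, fun h1 => (this.mpr h1.symm).symm⟩
  · apply key
    apply h3
    apply mul_mem_pCore_three h.td h.one_notMem hs hm
    show ASet D s = ASet D m
    ext y
    constructor
    · rintro ⟨hy, hys, hsy⟩
      have hym : y ≠ m := by
        rintro rfl
        exact hc hsy
      exact ⟨hy, hym, ((hout y hy hys hym).mp hsy.symm).symm⟩
    · rintro ⟨hy, hym, hmy⟩
      have hys : y ≠ s := by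
        rintro rfl
        exact hc hmy.symm
      exact ⟨hy, hys, ((hout y hy hys hym).mpr hmy.symm).symm⟩

/-- a primitive 3-transposition group with central `O₂`, `O₃` has no proper module with at
least two members -/
theorem TC.no_module (h : TC D) (hprim : Cfsg.IsPrimitiveUnderConj D)
    (h2 : Cfsg.pCore 2 G ≤ Subgroup.center G) (h3 : Cfsg.pCore 3 G ≤ Subgroup.center G) :
    ∀ n : ℕ, ∀ M : Set G, IsMod D M → M.ncard = n → 2 ≤ n → M ≠ D → False := by
  intro n
  induction n using Nat.strong_induction_on with
  | _ n ih =>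
    intro M hM hn hn2 hMD
    have hMfin : M.Finite := Set.toFinite M
    have hnotblk : ¬ IsBlk M := by
      intro hblk
      rcases hprim.2.2 M hM.1 hblk with hsub | heq
      · have : M.ncard ≤ 1 := Set.ncard_le_one_iff_subsingleton.mpr hsub
        omega
      · exact hMD heq
    unfold IsBlk at hnotblk
    push Not at hnotblk
    obtain ⟨g, hgne, hgdis⟩ := hnotblk
    have hM' : IsMod D (cj g M) := hM.cj h.td g
    have hcard' : (cj g M).ncard = n := by
      rw [← hn]
      apply Set.ncard_image_of_injective
      intro a b hab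
      have hab' : g * a * g⁻¹ = g * b * g⁻¹ := hab
      calc a = g⁻¹ * (g * a * g⁻¹) * g := by group
        _ = g⁻¹ * (g * b * g⁻¹) * g := by rw [hab']
        _ = b := by group
    have hIne : (M ∩ cj g M).Nonempty := by
      rw [Set.not_disjoint_iff] at hgdis
      obtain ⟨x, hx1, hx2⟩ := hgdis
      exact ⟨x, hx2, hx1⟩
    have hnsub : ¬ M ⊆ cj g M := by
      intro hsub
      apply hgne
      exact (Set.eq_of_subset_of_ncard_le hsub (by rw [hcard', hn]) (Set.toFinite _)).symm
    have hnsub' : ¬ cj g M ⊆ M := by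
      intro hsub
      apply hgne
      exact Set.eq_of_subset_of_ncard_le hsub (by rw [hcard', hn]) hMfin
    have hIlt : (M ∩ cj g M).ncard < n := by
      rw [← hn]
      apply Set.ncard_lt_ncard _ hMfin
      refine ⟨Set.inter_subset_left, ?_⟩
      intro hsub
      exact hnsub (fun x hx => (hsub hx).2)
    have hsum := Set.ncard_inter_add_ncard_diff_eq_ncard M (cj g M) hMfin
    by_cases hI2 : 2 ≤ (M ∩ cj g M).ncard
    · apply ih _ hIlt (M ∩ cj g M) (hM.inter hM') rfl hI2
      intro heq
      apply hMD
      apply Set.Subset.antisymm hM.1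
      rw [← heq]
      exact Set.inter_subset_left
    · have hI1 : (M ∩ cj g M).ncard = 1 := by
        have : 0 < (M ∩ cj g M).ncard := (Set.ncard_pos (Set.toFinite _)).mpr hIne
        omega
      have hdne : (cj g M \ M).Nonempty := by
        rw [Set.diff_nonempty]
        exact hnsub'
      have hdmod : IsMod D (M \ cj g M) := hM.diff hM' hdne
      have hdcard : (M \ cj g M).ncard = n - 1 := by omega
      by_cases hn3 : 3 ≤ n
      · apply ih (n - 1) (by omega) (M \ cj g M) hdmod hdcard (by omega)
        intro heq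
        apply hMD
        apply Set.Subset.antisymm hM.1
        rw [← heq]
        exact Set.diff_subset
      · have hn2' : M.ncard = 2 := by omega
        rw [Set.ncard_eq_two] at hn2'
        obtain ⟨s, m, hsm, rfl⟩ := hn2'
        exact h.no_two_module h2 h3 (hM.1 (by simp)) (hM.1 (by simp)) hsm hM

/-- in a primitive 3-transposition group of width at least 2, the subgroup generated by the
members of `D` commuting with `d` is a maximal `D`-subgroup -/
theorem TC.dsubgroup_maximal (h : TC D) (hprim : Cfsg.IsPrimitiveUnderConj D)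
    (hw : ∃ a ∈ D, ∃ b ∈ D, a ≠ b ∧ Commute a b) {d : G} (hd : d ∈ D) (H : Subgroup G)
    (hH : Cfsg.IsDSubgroup D H)
    (hle : Subgroup.closure {y : G | y ∈ D ∧ Commute d y} ≤ H) :
    H = Subgroup.closure {y : G | y ∈ D ∧ Commute d y} ∨ H = ⊤ := by
  by_contra hcon
  push Not at hcon
  obtain ⟨hne1, hne2⟩ := hcon
  have h2 := h.pCore_two_le_center_of_primitive hprim
  have h3 := h.pCore_three_le_center_of_primitive hprim hw
  -- some `a ∈ D ∩ H` does not commute with `d`
  have hex : ∃ a ∈ D, a ∈ H ∧ ¬ Commute d a := by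
    by_contra hcon
    push Not at hcon
    apply hne1
    apply le_antisymm _ hle
    unfold Cfsg.IsDSubgroup at hH
    rw [← hH]
    apply Subgroup.closure_mono
    rintro x ⟨hxD, hxH⟩
    exact ⟨hxD, hcon x hxD hxH⟩
  obtain ⟨a, ha, haH, hda⟩ := hex
  have hdH : d ∈ H := hle (Subgroup.subset_closure ⟨hd, Commute.refl d⟩)
  obtain ⟨T, hT⟩ : ∃ T : Set G, T = {t | t ∈ D ∧ t ∈ H ∧ ∀ y ∈ D, Commute t y → y ∈ H} :=
    ⟨_, rfl⟩
  have hmod : IsMod D T := by rw [hT]; exact h.td.isMod_dsub H
  have hdT : d ∈ T := by
    rw [hT]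
    exact ⟨hd, hdH, fun y hy hc => hle (Subgroup.subset_closure ⟨hy, hc⟩)⟩
  have hadT : a * d * a⁻¹ ∈ T := by
    rw [hT]
    refine ⟨h.td.conj a d hd, mul_mem (mul_mem haH hdH) (inv_mem haH), ?_⟩
    intro y hy hc
    rw [commute_conj_left_iff] at hc
    have hy' : a⁻¹ * y * a ∈ D := by
      have := h.td.conj a⁻¹ y hy
      rwa [inv_inv] at this
    have h1 : a⁻¹ * y * a ∈ H := hle (Subgroup.subset_closure ⟨hy', hc⟩)
    have h2' := mul_mem (mul_mem haH h1) (inv_mem haH)
    have e : a * (a⁻¹ * y * a) * a⁻¹ = y := by group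
    rwa [e] at h2'
  have hneq : d ≠ a * d * a⁻¹ := by
    intro heq
    exact hda (h.td.commute_of_conj_eq heq.symm)
  have hcard : 2 ≤ T.ncard := by
    have := (Set.one_lt_ncard_iff (Set.toFinite T)).mpr ⟨d, a * d * a⁻¹, hdT, hadT, hneq⟩
    omega
  have hTD : T ≠ D := by
    intro heq
    apply hne2
    rw [eq_top_iff, ← h.gen, Subgroup.closure_le]
    intro x hx
    rw [← heq, hT] at hx
    exact hx.2.1
  exact h.no_module hprim h2 h3 T.ncard T hmod rfl hcard hTD

end

end Cfsg.Agent.Lib.Helper24
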